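import Cfsg.Agent.Class.Wall.Dsc

/-!
# Wall's classification of the classes of symplectic and orthogonal groups in odd characteristic
-/

set_option autoImplicit false

namespace Cfsg.Agent.Class.Wall

open Module Polynomial
open Cfsg.Agent.KSG (Sim Lay layMk elemDiv)
open Cfsg.Agent.Class.Orth (SqClass sqClass)

variable {F V V' : Type*} [Field F] [AddCommGroup V] [Module F V] [AddCommGroup V'] [Module F V']

section General

variable {σ : F →+* F} {B : V →ₛₗ[σ] V →ₗ[F] F} {B' : V' →ₛₗ[σ] V' →ₗ[F] F} {g : End F V}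
  {g' : End F V'}

theorem layMap_mk (e : V →ₗ[F] V') (he : ∀ v, e (g v) = g' (e v)) (i : ℕ)
    (u : LinearMap.ker ((g - 1) ^ i)) : layMap e he i (layMk _ i u) = layMk _ i ⟨e u, by
      rw [LinearMap.mem_ker, ← pow_sub_one_comm e he, u.2, map_zero]⟩ := rfl

/-- The layers only depend on the generalised eigenspace. -/
theorem isometric_lay_of_ker_le (hg : ∀ x y, B (g x) (g y) = B x y)
    (hg' : ∀ x y, B' (g' x) (g' y) = B' x y) (e : V →ₗ[F] V') (hi : Function.Injective e)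
    (he : ∀ v, e (g v) = g' (e v)) (hB : ∀ u v, B' (e u) (e v) = B u v)
    (hk : ∀ j, LinearMap.ker ((g' - 1) ^ j) ≤ LinearMap.range e) (i : ℕ) :
    Isometric (layB hg i) (fun _ => 0) (layB hg' i) (fun _ => 0) := by
  have h1 : ∀ (j : ℕ) v, ((g' - 1) ^ j) (e v) = 0 → ((g - 1) ^ j) v = 0 := fun j v h =>
    hi (by rw [pow_sub_one_comm e he, h, map_zero])
  refine ⟨LinearEquiv.ofBijective (layMap e he i) ⟨(injective_iff_map_eq_zero _).2 fun x hx => ?_,
    fun x => ?_⟩, fun x y => ?_, fun _ => rfl⟩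
  · obtain ⟨u, rfl⟩ := KSG.layMk_surjective _ _ x
    obtain ⟨a, b, ha, hb, h⟩ := KSG.mem_layN.1 ((KSG.layMk_eq_zero_iff _).1 hx)
    obtain ⟨a, rfl⟩ := hk _ ha
    obtain ⟨b, rfl⟩ := hk _ hb
    exact (KSG.layMk_eq_zero_iff _).2 (KSG.mem_layN.2 ⟨a, b, h1 _ _ ha, h1 _ _ hb,
      hi (Eq.trans h (by simp [he]))⟩)
  · obtain ⟨⟨u, hu⟩, rfl⟩ := KSG.layMk_surjective _ _ x
    obtain ⟨u, rfl⟩ := hk _ hu
    exact ⟨layMk _ i ⟨u, h1 _ _ hu⟩, rfl⟩
  · obtain ⟨u, rfl⟩ := KSG.layMk_surjective _ _ x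
    obtain ⟨v, rfl⟩ := KSG.layMk_surjective _ _ y
    change B' (((g' - 1) ^ (i - 1)) (e u)) (e v) = B (((g - 1) ^ (i - 1)) u) v
    rw [← hB, pow_sub_one_comm e he]

theorem isometric_lay_prod (hg : ∀ x y, B (g x) (g y) = B x y)
    (hg' : ∀ x y, B' (g' x) (g' y) = B' x y) {k : End F (V × V')} (hk : ∀ x, k x = (g x.1, g' x.2))
    (hk' : ∀ x y, prodB B B' (k x) (k y) = prodB B B' x y) (i : ℕ) :
    Isometric (layB hk' i) (fun _ => 0) (prodB (layB hg i) (layB hg' i)) (fun _ => 0) := by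
  have h1 : ∀ v, LinearMap.fst F V V' (k v) = g (LinearMap.fst F V V' v) := fun v => by simp [hk]
  have h2 : ∀ v, LinearMap.snd F V V' (k v) = g' (LinearMap.snd F V V' v) := fun v => by simp [hk]
  have h3 : ∀ (j : ℕ) v, ((k - 1) ^ j) v = (((g - 1) ^ j) v.1, ((g' - 1) ^ j) v.2) := fun j v =>
    Prod.ext (pow_sub_one_comm _ h1 j v) (pow_sub_one_comm _ h2 j v)
  refine ⟨LinearEquiv.ofBijective ((layMap _ h1 i).prod (layMap _ h2 i))
    ⟨(injective_iff_map_eq_zero _).2 fun x hx => ?_, fun x => ?_⟩, fun x y => ?_, fun _ => rfl⟩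
  · obtain ⟨u, rfl⟩ := KSG.layMk_surjective _ _ x
    obtain ⟨a, b, ha, hb, h⟩ := KSG.mem_layN.1 ((KSG.layMk_eq_zero_iff _).1 (congrArg Prod.fst hx))
    obtain ⟨a', b', ha', hb', h'⟩ :=
      KSG.mem_layN.1 ((KSG.layMk_eq_zero_iff _).1 (congrArg Prod.snd hx))
    exact (KSG.layMk_eq_zero_iff _).2 (KSG.mem_layN.2 ⟨(a, a'), (b, b'), by rw [h3, ha, ha']; rfl,
      by rw [h3, hb, hb']; rfl, Prod.ext (Eq.trans h (by simp [hk])) (Eq.trans h' (by simp [hk]))⟩)
  · obtain ⟨u, hu⟩ := KSG.layMk_surjective _ _ x.1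
    obtain ⟨v, hv⟩ := KSG.layMk_surjective _ _ x.2
    exact ⟨layMk _ i ⟨(u, v), by rw [LinearMap.mem_ker, h3, u.2, v.2]; rfl⟩, Prod.ext hu hv⟩
  · obtain ⟨u, rfl⟩ := KSG.layMk_surjective _ _ x
    obtain ⟨v, rfl⟩ := KSG.layMk_surjective _ _ y
    rw [layB_mk, h3]
    rfl

theorem IsoSim.smul {Q : V → F} {Q' : V' → F} (h : IsoSim B Q g B' Q' g') (c : F) :
    IsoSim B Q (c • g) B' Q' (c • g') := by
  obtain ⟨e, h1, h2, h3⟩ := h
  exact ⟨e, h1, h2, fun v => by simp [h3]⟩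

theorem IsoSim.forget {Q : V → F} {Q' : V' → F} (h : IsoSim B Q g B' Q' g') :
    IsoSim B (fun _ => 0) g B' (fun _ => 0) g' := by
  obtain ⟨e, h1, -, h3⟩ := h
  exact ⟨e, h1, fun _ => rfl, h3⟩

theorem IsoSim.of_two_ne {Q : V → F} {Q' : V' → F} {ε : F} {π : F →+ F} (h2 : (2 : F) ≠ 0)
    (h : IsFormed σ B Q ε π) (h' : IsFormed σ B' Q' ε π)
    (e : IsoSim B (fun _ => 0) g B' (fun _ => 0) g') : IsoSim B Q g B' Q' g' := by
  obtain ⟨e, h1, -, h3⟩ := e
  exact ⟨e, h1, fun u => mul_left_cancel₀ h2 (by rw [two_mul, two_mul, h.two_Q, h'.two_Q, h1]), h3⟩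

end General

variable [FiniteDimensional F V] [FiniteDimensional F V'] {B : LinearMap.BilinForm F V}
  {B' : LinearMap.BilinForm F V'} {Q : V → F} {Q' : V' → F} {g : End F V} {g' : End F V'} {ε c : F}
  {π : F →+ F}

open Classical in
theorem finrank_lay_eq_count' (g : End F V) (hc : c * c = 1) (e : ℕ) :
    finrank F (Lay (c • g - 1) e) = (elemDiv g).count ((X - C c) ^ e) := by
  rcases eq_or_ne e 0 with rfl | h0
  · rw [Multiset.count_eq_zero_of_notMem fun h => by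
      simpa using (KSG.isPP_of_mem_elemDiv h).natDegree_pos, finrank_zero_iff_forall_zero]
    intro x
    obtain ⟨u, rfl⟩ := KSG.layMk_surjective _ _ x
    rw [show u = 0 from Subtype.ext u.2, map_zero]
  · exact finrank_lay_eq_count g hc h0

open Classical in
/-- The discriminant of the layer of blocks `(X - c) ^ e`. -/
noncomputable def sg (B : LinearMap.BilinForm F V) (g : End F V) (c : F) (e : ℕ) : SqClass F :=
  if h : ∀ x y, B ((c • g) x) ((c • g) y) = B x y then dsc (layB h e) else 1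

theorem sg_eq (h : ∀ x y, B ((c • g) x) ((c • g) y) = B x y) (e : ℕ) :
    sg B g c e = dsc (layB h e) := dif_pos h

open Classical in
theorem sg_eq_one (hc : c * c = 1) {e : ℕ} (h : (X - C c) ^ e ∉ elemDiv g) : sg B g c e = 1 := by
  unfold sg
  split_ifs
  · exact dsc_of_finrank_eq_zero
      ((finrank_lay_eq_count' g hc e).trans (Multiset.count_eq_zero_of_notMem h))
  · rfl

theorem IsoSim.sg_eq (h : IsoSim B Q g B' Q' g') (hB : Herm (RingHom.id F) ε B')
    (hg' : ∀ x y, B' (g' x) (g' y) = B' x y) (hc : c * c = 1) (e : ℕ) : sg B g c e = sg B' g' c e := by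
  have hg : ∀ x y, B (g x) (g y) = B x y := fun x y => by
    obtain ⟨e, h1, -, h3⟩ := h
    rw [← h1, h3, h3, hg', h1]
  rw [Wall.sg_eq (smul_pres hg hc), Wall.sg_eq (smul_pres hg' hc)]
  exact ((h.smul c).isometric_lay _ _ e).dsc_eq (hB.herm_layB _ e).toNd

theorem Herm.sg_restrict (hB : Herm (RingHom.id F) ε B) (hg : ∀ x y, B (g x) (g y) = B x y)
    (hc : c * c = 1) {W : Submodule F V} (hW : ∀ v ∈ W, g v ∈ W)
    (hk : ∀ j, LinearMap.ker ((c • g - 1) ^ j) ≤ W) (e : ℕ) :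
    sg (resB B W) (g.restrict hW) c e = sg B g c e := by
  rw [sg_eq (smul_pres hg hc), sg_eq (smul_pres (B := resB B W) (fun x y => hg x y) hc)]
  exact (isometric_lay_of_ker_le _ _ W.subtype W.injective_subtype (fun _ => rfl) (fun _ _ => rfl)
    (by simpa using hk) e).dsc_eq (hB.herm_layB _ e).toNd

theorem Herm.sg_prod (h : Herm (RingHom.id F) ε B) (h' : Herm (RingHom.id F) ε B')
    (hg : ∀ x y, B (g x) (g y) = B x y) (hg' : ∀ x y, B' (g' x) (g' y) = B' x y) (hc : c * c = 1)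
    (e : ℕ) : sg (prodB B B') (g.prodMap g') c e = sg B g c e * sg B' g' c e := by
  have h1 := h.herm_layB (smul_pres hg hc) e
  have h2 := h'.herm_layB (smul_pres hg' hc) e
  rw [sg_eq (smul_pres hg hc), sg_eq (smul_pres hg' hc), ← h1.dsc_prodB h2,
    sg_eq (smul_pres (fun x y => by simp [hg, hg']) hc)]
  exact (isometric_lay_prod _ _ (fun _ => rfl) _ e).dsc_eq (h1.prod h2).toNd

open Classical in
theorem Herm.sg_smul (h : Herm (RingHom.id F) ε B) (hg : ∀ x y, B (g x) (g y) = B x y)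
    (hc : c * c = 1) {a : F} (ha : a ≠ 0) (e : ℕ) :
    sg (a • B) g c e = sqClass a ^ (elemDiv g).count ((X - C c) ^ e) * sg B g c e := by
  rw [sg_eq (smul_pres hg hc), ← finrank_lay_eq_count' g hc,
    ← (h.herm_layB (smul_pres hg hc) e).dsc_smul ha, sg_eq (smul_pres (fun x y => by simp [hg]) hc)]
  congr 1
  refine LinearMap.ext₂ fun x y => ?_
  obtain ⟨u, rfl⟩ := KSG.layMk_surjective _ _ x
  obtain ⟨v, rfl⟩ := KSG.layMk_surjective _ _ y
  rfl

omit [FiniteDimensional F V] in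
theorem ker_smul_sub_one_pow (g : End F V) (hc : c * c = 1) (j : ℕ) :
    LinearMap.ker ((c • g - 1) ^ j) = LinearMap.ker (aeval g ((X - C c) ^ j)) := by
  have : c • g - 1 = c • aeval g (X - C c) := by
    simp [smul_sub, Algebra.algebraMap_eq_smul_one, smul_smul, hc]
  rw [this, _root_.smul_pow, LinearMap.ker_smul _ _ (pow_ne_zero _ (left_ne_zero_of_mul_eq_one hc)),
    ← map_pow]

theorem ker_le_ker_of_le (g : End F V) (hc : c * c = 1) {k : ℕ} (hk : finrank F V ≤ k) (j : ℕ) :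
    LinearMap.ker ((c • g - 1) ^ j) ≤ LinearMap.ker (aeval g ((X - C c) ^ k)) := by
  rw [← ker_smul_sub_one_pow g hc, End.ker_pow_eq_ker_pow_finrank_of_le hk]
  exact End.ker_pow_le_ker_pow_finrank _ j

omit [FiniteDimensional F V] in
theorem ker_le_range_of_isCoprime (g : End F V) {a b : F[X]} (h : IsCoprime a b) :
    LinearMap.ker (aeval g b) ≤ LinearMap.range (aeval g a) := fun v hv => by
  obtain ⟨s, t, e⟩ := h
  refine ⟨aeval g s v, ?_⟩
  have := LinearMap.congr_fun (congrArg (aeval g) e) v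
  rwa [map_add, mul_comm s, map_mul, map_mul, LinearMap.add_apply, End.mul_apply, End.mul_apply, hv,
    map_zero, add_zero, map_one] at this

variable [Finite F]

theorem Herm.isoSim_of_nilpotent (h2 : (2 : F) ≠ 0) (hε : ε * ε = 1) (h : Herm (RingHom.id F) ε B)
    (h' : Herm (RingHom.id F) ε B') (hg : ∀ x y, B (g x) (g y) = B x y)
    (hg' : ∀ x y, B' (g' x) (g' y) = B' x y) (hs : Sim g g') (hc : c * c = 1)
    (hn : IsNilpotent (c • g - 1))
    (hl : ∀ i, (-1) ^ (i - 1) * ε = 1 → sg B g c i = sg B' g' c i) :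
    IsoSim B (fun _ => 0) g B' (fun _ => 0) g' := by
  have := (h.isoSim_of_lay h' (smul_pres hg hc) (smul_pres hg' hc) (hs.imp fun e he v => by simp [he])
    hn (e := 2⁻¹) (by simp; field_simp; ring) fun i => (h.herm_layB _ i).isometric_of_dsc' h2
      (by rw [mul_mul_mul_comm, hε, ← mul_pow]; simp) (h'.herm_layB _ i)
      (by rw [finrank_lay_eq_count' g hc, finrank_lay_eq_count' g' hc, hs.elemDiv_eq]) fun e => by
        rw [← sg_eq, ← sg_eq, hl i e]).smul c
  simpa [smul_smul, hc] using this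

theorem _root_.Cfsg.Agent.Class.IsFormed.isoSim_of_split_sg (h2 : (2 : F) ≠ 0) (hε : ε * ε = 1)
    (h : IsFormed (RingHom.id F) B Q ε π) (h' : IsFormed (RingHom.id F) B' Q' ε π) (hg : Pres B Q g)
    (hg' : Pres B' Q' g') (hs : Sim g g') (hc : c * c = 1) {k : ℕ} (hk : finrank F V ≤ k)
    (hl : ∀ i, (-1) ^ (i - 1) * ε = 1 → sg B g c i = sg B' g' c i)
    (h1 : IsoSim (resB B _) (fun w => Q w) (g.restrict (mem_range_aeval g ((X - C c) ^ k)))
      (resB B' _) (fun w => Q' w) (g'.restrict (mem_range_aeval g' ((X - C c) ^ k)))) :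
    IsoSim B Q g B' Q' g' := by
  have hf := fit_pow_finrank g (X - C c) hk
  have k1 := h.restrict (hg.inf_perp_ker h hc hf)
  have k2 := h'.restrict (hg'.inf_perp_ker h' hc (hf.of_sim hs))
  refine h.isoSim_of_split h' hg hg' hc hf (hf.of_sim hs) h1 (IsoSim.of_two_ne h2 k1 k2
    (k1.herm.isoSim_of_nilpotent h2 hε k2.herm (hg.restrict _).map_B (hg'.restrict _).map_B
      (sim_restrict_ker hs _) hc ⟨k, ?_⟩ fun i hi => ?_))
  · rw [← LinearMap.ker_eq_top, ker_smul_sub_one_pow _ hc, eq_top_iff]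
    exact fun v _ => Subtype.ext ((aeval_restrict_apply _ _ v).trans v.2)
  · rw [h.herm.sg_restrict hg.map_B hc _ (ker_le_ker_of_le g hc hk), hl i hi,
      h'.herm.sg_restrict hg'.map_B hc _ (ker_le_ker_of_le g' hc (hs.finrank_eq ▸ hk))]

/-- **Wall's theorem** in odd characteristic. -/
theorem _root_.Cfsg.Agent.Class.IsFormed.isoSim_of_sg (h2 : (2 : F) ≠ 0) (hε : ε * ε = 1)
    (h : IsFormed (RingHom.id F) B Q ε π) (h' : IsFormed (RingHom.id F) B' Q' ε π) (hg : Pres B Q g)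
    (hg' : Pres B' Q' g') (hs : Sim g g')
    (hl : ∀ c i, c * c = 1 → (-1) ^ (i - 1) * ε = 1 → sg B g c i = sg B' g' c i) :
    IsoSim B Q g B' Q' g' := by
  have c1 : (1 : F) * 1 = 1 := one_mul 1
  have c2 : (-1 : F) * -1 = 1 := by simp
  have hf := fit_pow_finrank g (X - C 1) le_rfl
  have k1 := h.restrict (hg.inf_perp_range h c1 hf)
  have k2 := h'.restrict (hg'.inf_perp_range h' c1 (hf.of_sim hs))
  have k3 := hg.restrict (mem_range_aeval g ((X - C 1) ^ finrank F V))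
  have k4 := hg'.restrict (mem_range_aeval g' ((X - C 1) ^ finrank F V))
  have k5 := sim_restrict_range hs ((X - C 1) ^ finrank F V)
  have k6 : ∀ j, IsCoprime ((X - C 1 : F[X]) ^ finrank F V) ((X - C (-1)) ^ j) := fun j =>
    (isCoprime_X_sub_C_of_isUnit_sub (by simpa [← two_mul] using h2)).pow
  have hf' := fit_pow_finrank (g.restrict (mem_range_aeval g ((X - C 1) ^ finrank F V))) (X - C (-1))
    (Submodule.finrank_le _)
  refine h.isoSim_of_split_sg h2 hε h' hg hg' hs c1 le_rfl (fun i => hl 1 i c1)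
    (k1.isoSim_of_split_sg h2 hε k2 k3 k4 k5 c2 (Submodule.finrank_le _) (fun i hi => ?_)
      ((k1.restrict (k3.inf_perp_range k1 c2 hf')).isoSim_of_isUnit
        (k2.restrict (k4.inf_perp_range k2 c2 (hf'.of_sim k5))) (k3.restrict _) (k4.restrict _)
        (sim_restrict_range k5 _) ?_))
  · rw [h.herm.sg_restrict hg.map_B c2, h'.herm.sg_restrict hg'.map_B c2, hl _ i c2 hi] <;>
      exact fun j => (ker_smul_sub_one_pow _ c2 j).le.trans (ker_le_range_of_isCoprime _ (k6 j))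
  · rcases eq_or_ne (finrank F V) 0 with h0 | h0
    · have := finrank_zero_iff.1 h0
      exact isUnit_of_subsingleton _
    · refine isUnit_sq_sub_one ?_ ?_ <;> rw [pow_one, ← isUnit_pow_iff h0, ← map_pow]
      exacts [isUnit_aeval_restrict _ hf.isUnit_restrict, hf'.isUnit_restrict]

end Cfsg.Agent.Class.Wall
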