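import Cfsg.Agent.Class.Wall.OrthOdd
import Cfsg.Agent.Class.FG.IndexTwo
import Cfsg.Agent.KSG.AutOrth16

/-!
# Classes of `O` that do not split in `Ω`
-/

set_option autoImplicit false

namespace Cfsg.Agent.Class.Wall

open Module Polynomial QuadraticMap
open Cfsg.Agent.Class.Orth
open Cfsg.Agent.KSG

theorem exists_unit_add_conj' {R : Type*} [CommRing R] [Finite R] (σ : R →+* R)
    (hσ : ∀ a, σ (σ a) = a) {y g : R} (hy : IsUnit y) (hg : g * σ g = 1) (h1 : IsUnit (g - σ g))
    (h3 : IsUnit (2 : R)) : ∃ v, IsUnit v ∧ IsUnit (v + σ v) ∧ IsUnit (y * v + σ (y * v)) := by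
  have h0 : IsUnit (1 + g) := isUnit_of_mul_isUnit_left (y := 1 - σ g) (by
    convert h1 using 1; linear_combination -hg)
  have h2 : IsUnit (1 + g + σ (1 + g)) := by
    convert h0.mul (h0.map σ) using 1
    rw [map_add, map_one]; linear_combination -hg
  obtain ⟨n, hn, he⟩ := exists_pow_isIdempotentElem (y + σ y)
  obtain ⟨n, rfl⟩ := Nat.exists_eq_add_one_of_ne_zero hn.ne'
  set s := y + σ y with hs
  set e := s ^ (n + 1) with he'
  have h4 : σ e = e := by rw [he', map_pow, hs, map_add, hσ, add_comm]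
  obtain ⟨t, ht⟩ := h3.exists_right_inv
  refine ⟨e * 1 + (1 - e) * (1 + g), isUnit_idem_comb he (a' := 1) (by simp) h0, ?_, ?_⟩
  · convert isUnit_idem_comb he (a := 2) (a' := t) (by rw [ht, mul_one]) h2 using 1
    simp only [map_add, map_mul, map_sub, map_one, h4]; ring
  · have h5 : IsNilpotent ((1 - e) * s * σ (1 + g)) := ⟨n + 1, by
      rw [mul_pow, mul_pow, ← he', pow_succ, mul_assoc _ (1 - e), sub_mul, one_mul, he.eq, sub_self,
        mul_zero, zero_mul]⟩
    convert h5.isUnit_add_left_of_commute (isUnit_idem_comb he (a := s) (a' := s ^ n)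
      (by rw [← pow_succ', ← he', he.eq]) (hy.mul h1)) (Commute.all _ _) using 1
    simp only [map_add, map_mul, map_sub, map_one, h4, hs]; ring

variable {F V : Type*} [Field F] [Finite F] [AddCommGroup V] [Module F V] [FiniteDimensional F V]
  {Q : QuadraticForm F V}

theorem exists_commute_det_of_mem {g : End F V} {p : F[X]} (hp : Irreducible p)
    (hm : p ∈ elemDiv g) (d : F) : ∃ t, Commute g t ∧ LinearMap.det t = d := by
  classical
  obtain ⟨k, c, hc, ⟨e, he⟩, h⟩ := exists_sim_cycEnd_elemDiv g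
  rw [h, Multiset.mem_map] at hm
  obtain ⟨i, -, rfl⟩ := hm
  have := Fact.mk hp
  have := (hc i).monic.finite_adjoinRoot
  have : Finite (AdjoinRoot (c i)) := Module.finite_of_finite F
  obtain ⟨x, hx⟩ := FiniteField.norm_surjective F (AdjoinRoot (c i)) d
  refine ⟨e.symm.conj (cycMul c (Pi.mulSingle i x)), LinearMap.ext fun v => e.injective ?_, ?_⟩
  · simp only [End.mul_apply, LinearMap.comp_apply, LinearEquiv.conj_apply, LinearEquiv.coe_coe,
      LinearEquiv.symm_symm, LinearEquiv.apply_symm_apply, he]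
    exact (LinearMap.congr_fun (cycMul_commute c _).eq (e v)).symm
  · rw [LinearEquiv.conj_apply, LinearMap.comp_assoc, LinearMap.det_conj,
      det_cycMul c fun i => (hc i).monic, Finset.prod_eq_single i]
    · simp [hx]
    · intro j _ hj
      simp [Pi.mulSingle_eq_of_ne hj]
    · simp

variable (hQ : ND Q) (h2 : (2 : F) ≠ 0) {g : OG Q}
include hQ h2

theorem exists_spinor_commute_of_det (hu : IsUnit (oE Q g - oE Q g⁻¹)) {t : End F V}
    (ht : Commute (oE Q g) t) (h0 : IsUnit t) (hd : ¬ IsSquare (LinearMap.det t)) :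
    ∃ k, Commute k g ∧ detO Q k = 1 ∧ spinor hQ (hQ.reflGen_odd h2) k ≠ 1 := by
  have H := ND.herm hQ
  have τ := H.isAnti_adj
  have := finite_end (F := F) (V := V)
  have he : Even (finrank F V) := by
    have := congrArg Units.val (det_eq_one_of_commute hQ h2 hu (k := negOne Q)
      (Commute.map (Subgroup.mem_center_iff.1 negOne_mem_center g).symm _))
    rwa [detO_negOne, Units.val_one,
      neg_one_pow_eq_one_iff_even fun e => h2 (by linear_combination -e)] at this
  have h1 := (commute_adj hQ ht.symm).mul_left ht.symm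
  obtain ⟨y, hy, ⟨y, rfl⟩, h3⟩ := exists_norm_commute hQ hu ((τ.isUnit h0).mul h0)
    (by rw [τ.mul, H.adj_adj]) h1
  set S : Set (End F V) := {H.adj t * t, oE Q g, oE Q g⁻¹} with hS
  have h4 : ∀ s ∈ S, H.adj s ∈ S := by
    rintro s (rfl | rfl | rfl) <;> simp [hS, τ.mul, H.adj_adj, adj_oE hQ]
  have h5 : ∀ s ∈ S, Commute s (oE Q g) := by
    rintro s (rfl | rfl | rfl)
    exacts [h1, Commute.refl _, (Commute.refl g).inv_left.map _]
  have h6 : ∀ s ∈ S, ∀ t ∈ S, Commute s t := by
    rintro s hs t' (rfl | rfl | rfl)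
    · rcases hs with rfl | rfl | rfl
      exacts [Commute.refl _, h1.symm, by simpa [τ.mul, H.adj_adj, adj_oE hQ] using τ.commute h1.symm]
    · exact h5 s hs
    · simpa [H.adj_adj, adj_oE hQ] using τ.commute (h5 _ (h4 s hs))
  have h7 : ∀ x ∈ cc S, Commute x (oE Q g) := fun x hx => (hx _ h5).symm
  let _ : CommRing (cc S) :=
    { (inferInstance : Ring (cc S)) with mul_comm := fun x y => Subtype.ext (cc_comm h6 x.2 y.2) }
  have hm : ∀ x : cc S, H.adj x ∈ cc S := fun x => τ.map_mem_cc H.adj_bijective h4 x.2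
  let σ : cc S →+* cc S :=
    { toFun := fun x => ⟨H.adj x, hm x⟩
      map_one' := Subtype.ext τ.one
      map_zero' := Subtype.ext τ.zero
      map_add' := fun x y => Subtype.ext (τ.add x y)
      map_mul' := fun x y => Subtype.ext ((τ.mul x y).trans (cc_comm h6 (hm y) (hm x))) }
  have hσ : ∀ a, σ (σ a) = a := fun a => Subtype.ext (H.adj_adj a)
  have key : ∀ v : cc S, IsUnit v → IsUnit (v + σ v) → ¬ IsSquare (LinearMap.det v.1) →
      ∃ k, Commute k g ∧ detO Q k = 1 ∧ spinor hQ (hQ.reflGen_odd h2) k ≠ 1 := fun v hv hs hn => by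
    obtain ⟨w, hw⟩ := hv.exists_right_inv
    have hw' := congrArg σ hw
    rw [map_mul, map_one] at hw'
    obtain ⟨k, hk⟩ := exists_oE_of_adj hQ h2 (y := (v * σ w).1) (congrArg Subtype.val (show
      σ (v * σ w) * (v * σ w) = 1 by
        rw [map_mul, hσ]; linear_combination σ v * σ w * hw + hw'))
    have hc := hk ▸ h7 _ (v * σ w).2
    refine ⟨k, oE_injective (by simpa using hc.eq), det_eq_one_of_commute hQ h2 hu hc, ?_⟩
    have hv' := hv.map (cc S).subtype
    rwa [spinor_eq_of_mul_adj hQ h2 hu he hv' (h7 _ v.2) (hs.map (cc S).subtype)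
      (hk ▸ congrArg Subtype.val (show v * σ w * σ v = v by linear_combination v * hw')), Ne,
      sqClass_eq_one_iff (hv'.map _).ne_zero]
  have hgS : oE Q g ∈ cc S := subset_cc (by simp [hS])
  obtain ⟨v, a1, a2, a3⟩ := exists_unit_add_conj' σ hσ (y := ⟨y, hy⟩) (g := ⟨_, hgS⟩)
    (isUnit_subring _ y.isUnit)
    (Subtype.ext (show _ * H.adj _ = 1 by rw [adj_oE hQ, ← map_mul, mul_inv_cancel, map_one]))
    (isUnit_subring _ (show IsUnit (_ - H.adj _) by rwa [adj_oE hQ]))
    (isUnit_subring _ (show IsUnit (2 : End F V) by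
      simpa [map_ofNat] using h2.isUnit.map (algebraMap F (End F V))))
  obtain ⟨u, hu1⟩ := exists_oE_of_adj hQ h2 (y := t * ↑y⁻¹) (by
    rw [τ.mul, mul_assoc, ← mul_assoc (H.adj t), ← h3, mul_assoc, Units.mul_inv, mul_one, ← τ.mul,
      Units.mul_inv, τ.one])
  have h8 := det_eq_one_of_commute hQ h2 hu (k := u)
    (hu1 ▸ ht.symm.mul_left (h7 _ hy).units_inv_left)
  have h9 : LinearMap.det (y : End F V) = LinearMap.det t := by
    rw [← y.inv_mul_cancel_right t, ← hu1, map_mul, show LinearMap.det (oE Q u) = detO Q u from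
      (coe_detO _).symm, h8, Units.val_one, one_mul]
  by_cases h : IsSquare (LinearMap.det v.1)
  · refine key _ ((isUnit_subring _ y.isUnit).mul a1) a3 fun h' => hd ?_
    have h10 := ((a1.map (cc S).subtype).map LinearMap.det).ne_zero
    simpa [h9, show LinearMap.det v.1 ≠ 0 from h10] using h'.div h
  · exact key v a1 a2 h

omit hQ h2 [Finite F] in
theorem exists_restrict {W : Submodule F V} (hW : ∀ w ∈ W, oE Q g w ∈ W) :
    ∃ k : OG (Q.comp W.subtype), oE _ k = (oE Q g).restrict hW :=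
  ⟨⟨LinearEquiv.ofInjectiveEndo ((oE Q g).restrict hW) fun _ _ hab =>
    Subtype.ext (g.1.injective (congrArg Subtype.val hab)), fun v => OG.map_Q g v⟩, rfl⟩

omit [FiniteDimensional F V] in
theorem exists_commute_of_prod {U W : Type*} [AddCommGroup U] [Module F U] [AddCommGroup W]
    [Module F W] [FiniteDimensional F U] [FiniteDimensional F W] {Q₁ : QuadraticForm F U}
    {Q₂ : QuadraticForm F W} (e : V ≃ₗ[F] U × W) (he : ∀ v, (Q₁.prod Q₂) (e v) = Q v) {j : OG Q₁}
    {k : OG Q₂} (h3 : ∀ v, e (g.1 v) = (prodHom _ _ (j, k)).1 (e v))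
    (h5 : IsUnit (oE _ k * oE _ k - 1)) {p : F[X]} (hp : Irreducible p) (h4 : p ∈ elemDiv (oE _ k)) :
    ∃ k, Commute k g ∧ detO Q k = 1 ∧ k ∉ commutator (OG Q) := by
  obtain ⟨hU, hW⟩ := ND.of_prod (hQ.of_sim e 1 one_ne_zero (by simpa only [one_mul] using he))
  replace h5 : IsUnit (oE _ k - oE _ k⁻¹) := by
    convert ((Group.isUnit k⁻¹).map (oE _)).mul h5 using 1
    simp only [mul_sub, ← map_mul, inv_mul_cancel_left, mul_one]
  obtain ⟨d, hd⟩ := exists_not_isSquare h2
  obtain ⟨t, ht, rfl⟩ := exists_commute_det_of_mem hp h4 d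
  obtain ⟨z, a1, a2, a3⟩ := exists_spinor_commute_of_det hW h2 h5 ht
    ((LinearMap.isUnit_iff_isUnit_det t).2 (Ne.isUnit fun h => hd (h ▸ IsSquare.zero))) hd
  obtain ⟨w, hw⟩ := (OG.congr e he).surjective (prodHom _ _ (1, z))
  have h6 : OG.congr e he g = prodHom _ _ (j, k) := OG.ext fun v => by
    rw [OG.congr_apply, h3, e.apply_symm_apply]
  refine ⟨w, (OG.congr e he).injective (by
    rw [map_mul, map_mul, hw, h6, ← map_mul, ← map_mul, Prod.mk_mul_mk, Prod.mk_mul_mk, a1.eq,
      one_mul, mul_one]), Units.ext ?_, fun h => a3 ?_⟩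
  · rw [coe_detO, ← LinearMap.det_conj _ e, show e.toLinearMap ∘ₗ w.1.toLinearMap ∘ₗ e.symm.toLinearMap =
      LinearMap.prodMap 1 z.1.toLinearMap from LinearMap.ext fun v => congrArg (·.1 v) hw,
      LinearMap.det_prodMap, ← coe_detO, a2, map_one, one_mul]
  · rw [← mem_commutator_equiv (OG.congr e he), hw,
      mem_commutator_iff_det (hU.prod' hW) ((hU.prod' hW).reflGen_odd h2) h2,
      spinor_prodHom hU hW (hU.reflGen_odd h2) (hW.reflGen_odd h2), map_one, one_mul] at h
    exact h.2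

theorem exists_commute_of_coprime {p : F[X]} (hp : Irreducible p) (hm : p ∈ elemDiv (oE Q g))
    (hc : IsCoprime (X ^ 2 - 1) p) : ∃ k, Commute k g ∧ detO Q k = 1 ∧ k ∉ commutator (OG Q) := by
  obtain ⟨n, hn⟩ : ∃ n, n = finrank F V + 1 := ⟨_, rfl⟩
  have hf := fit_pow_finrank (oE Q g) (X ^ 2 - 1) (k := n) (by omega)
  have hd := (disjoint_iff.2 hf).symm
  obtain ⟨e, he, h⟩ := exists_prod_equiv (Q := Q) ⟨hd, codisjoint_iff.2
    (Submodule.eq_top_of_disjoint _ _ (by
      rw [add_comm]; exact (LinearMap.finrank_range_add_finrank_ker _).ge) hd)⟩ (by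
      rintro u hu _ ⟨x, rfl⟩
      rw [polar_comm]
      simp only [LinearMap.mem_ker, map_pow, map_sub, aeval_X, map_one] at hu ⊢
      exact form_pow_eq_zero (B := polarBilin Q) (fun x y => by simp [pow_two, oE_apply]) x hu)
  obtain ⟨j, hj⟩ := exists_restrict (mem_ker_aeval (oE Q g) ((X ^ 2 - 1) ^ n))
  obtain ⟨k, hk⟩ := exists_restrict (mem_range_aeval (oE Q g) ((X ^ 2 - 1) ^ n))
  have h3 : ∀ v, e (g.1 v) = (prodHom _ _ (j, k)).1 (e v) := fun v => e.symm.injective (by
    rw [e.symm_apply_apply, h]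
    conv_lhs => rw [← e.symm_apply_apply v, h, map_add]
    exact (congrArg₂ _ (congrArg Subtype.val (LinearMap.congr_fun hj _))
      (congrArg Subtype.val (LinearMap.congr_fun hk _))).symm)
  refine exists_commute_of_prod hQ h2 e he h3 ?_ hp ?_
  · have := hf.isUnit_restrict
    rw [← hk] at this
    simpa only [map_pow, isUnit_pow_iff (show n ≠ 0 by omega), map_sub, aeval_X, map_one,
      pow_two, map_mul] using this
  · rw [Sim.elemDiv_eq (f := oE Q g) (g := (oE _ j).prodMap (oE _ k)) ⟨e, h3⟩, elemDiv_prodMap,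
      Multiset.mem_add] at hm
    refine hm.resolve_left fun hm => hp.not_isUnit ((hc.pow_left (m := n)).symm.isUnit_of_dvd
      ((aeval_eq_zero_iff_elemDiv _ _).1 ?_ p hm))
    rw [hj]
    exact LinearMap.ext fun v => Subtype.ext ((aeval_restrict_apply _ _ v).trans v.2)

open Classical in
theorem exists_commute_of_count {c : F} (hc : c * c = 1)
    (hm : 2 ≤ (elemDiv (oE Q g)).count (X - C c)) :
    ∃ k, Commute k g ∧ detO Q k = 1 ∧ k ∉ commutator (OG Q) := by
  have hg : ∀ x y, polarBilin Q (oE Q g x) (oE Q g y) = polarBilin Q x y := fun x y => by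
    simp [oE_apply]
  have H := (ND.herm hQ).herm_layB (smul_pres hg hc) 1
  rw [Nat.sub_self, pow_zero, one_mul] at H
  obtain ⟨Q₀, h3, -, h4⟩ := (H.isTF_of_two_ne h2).exists_quadraticForm
  have key : ∀ a ≠ 0, ∃ u, Q u = a ∧ Commute (refl Q u) g := fun a ha => by
    obtain ⟨x, hx⟩ := ((nd_iff _).2 h4).exists_Q_eq (by
      rwa [finrank_lay_eq_count' _ hc, pow_one]) ha
    obtain ⟨⟨u, hu⟩, rfl⟩ := layMk_surjective _ _ x
    have h5 : g.1 u = c • u := by
      rw [← one_smul F (g.1 u), ← hc, mul_smul]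
      exact congrArg _ (by simpa [sub_eq_zero, oE_apply] using hu)
    refine ⟨u, ?_, ?_⟩
    · rw [h3] at hx
      simpa [polar_self', h2] using (congrArg (2⁻¹ * ·) (layB_mk _ _ _ _)).symm.trans hx
    · rw [Commute, SemiconjBy, eq_comm, ← mul_inv_eq_iff_eq_mul, conj_refl, h5,
        refl_smul (left_ne_zero_of_mul_eq_one hc)]
  obtain ⟨d, hd⟩ := exists_not_isSquare h2
  have h0 : d ≠ 0 := fun h => hd (h ▸ IsSquare.zero)
  obtain ⟨u, u1, u2⟩ := key 1 one_ne_zero
  obtain ⟨v, rfl, v2⟩ := key d h0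
  have u3 := u1.trans_ne one_ne_zero
  refine ⟨_, u2.mul_left v2, by rw [map_mul, detO_refl u3, detO_refl h0]; simp, fun h => hd ?_⟩
  have := ((mem_commutator_iff hQ (hQ.reflGen_odd h2) _).1 h).2
  rwa [map_mul, spinor_refl _ _ u3, spinor_refl _ _ h0, u1, sqClass_one, one_mul,
    sqClass_eq_one_iff h0] at this

theorem lev_dvd_of_split (h : ∀ k, Commute k g → detO Q k = 1 → k ∈ commutator (OG Q)) :
    FG.lev (elemDiv (oE Q g)) 1 ∣ X ^ 2 - C 1 := by
  classical
  have hs := fun b => isPP_of_mem_elemDiv (f := oE Q g) (b := b)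
  have key : ∀ p ∈ FG.levM (elemDiv (oE Q g)) 1, ∃ c, c * c = 1 ∧ p = X - C c := fun p hp => by
    obtain ⟨h3, h4, h5⟩ := FG.mem_levM hs hp
    rw [pow_one] at h5
    obtain h6 | ⟨c, e, hc, he, rfl⟩ := IsPP.coprime_or (hs p h5)
    · obtain ⟨k, k1, k2, k3⟩ := exists_commute_of_coprime hQ h2 h3 h5 h6
      exact absurd (h k k1 k2) k3
    · exact ⟨c, hc, (eq_of_monic_of_associated (monic_X_sub_C c) h4
        ((irreducible_X_sub_C c).associated_of_dvd h3 (dvd_pow_self _ he))).symm⟩
  rw [show (X ^ 2 - C 1 : F[X]) = ({X - C 1, X - C (-1)} : Multiset F[X]).prod by simp; ring]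
  refine Multiset.prod_dvd_prod_of_le ((Multiset.le_iff_subset (Multiset.nodup_iff_count_le_one.2
    fun p => ?_)).2 fun p hp => ?_)
  · by_contra h3
    obtain ⟨c, hc, rfl⟩ := key p (Multiset.count_pos.1 (by omega))
    rw [FG.count_levM hs (irreducible_X_sub_C c) (monic_X_sub_C c) one_ne_zero, pow_one] at h3
    obtain ⟨k, k1, k2, k3⟩ := exists_commute_of_count hQ h2 (g := g) hc (by omega)
    exact k3 (h k k1 k2)
  · obtain ⟨c, hc, rfl⟩ := key p hp
    rcases mul_self_eq_one_iff.1 hc with rfl | rfl <;> simp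

omit hQ h2 in
theorem W_pal_odd (q N : ℕ) {m : ℕ} (hm : Odd m) : FG.W (FG.aS (fun _ => False) q) N m = 0 := by
  induction N generalizing m with
  | zero => exact if_neg hm.pos.ne'
  | succ N ih =>
    refine Finset.sum_eq_zero fun e he => mul_eq_zero.2 (e.even_or_odd.symm.imp (fun h => ?_)
      fun h => ih ((Nat.odd_sub ?_).2 (by simp [hm, h])))
    · simp [FG.aS, FG.pal, h]
    · exact (Nat.mul_le_mul_left _ (Nat.lt_succ_iff.1 (Finset.mem_range.1 he))).trans
        (Nat.mul_div_le _ _)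

omit hQ in
/-- The class number of `Ω` in odd dimension. -/
theorem card_conjClasses_Omega_odd {ι : Type} [Fintype ι] [DecidableEq ι]
    {Q : QuadraticForm F (ι → F)} {q : (ι → F) → F} (hQ : ND Q) (h : ∀ v, Q v = q v) {n : ℕ}
    (hn : n ≠ 0) (hι : Fintype.card ι = 2 * n + 1) :
    Nat.card F ^ n ≤ 2 * Nat.card (ConjClasses (commutator (isometryGroup F q))) ∧
      8 * Nat.card (ConjClasses (commutator (isometryGroup F q))) ≤ 57 * Nat.card F ^ n := by
  classical
  have := Fintype.ofFinite (ConjClasses (isometryGroup F q))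
  have hQ' := (nd_iff _).1 hQ
  have hR := hQ.reflGen_odd h2
  have ho : Odd (Fintype.card ι) := ⟨n, hι⟩
  let e := isoEquiv Q q h
  let S := Finset.univ.filter fun D : ConjClasses (isometryGroup F q) =>
    FG.lev (mdiv (Quotient.out D).1.1) 1 ∣ X ^ 2 - C 1
  have h1 : ∀ k, detO Q k = 1 → k * negOne Q ∉ commutator (OG Q) := fun k hk h => by
    have := congrArg Units.val ((mem_commutator_iff_det hQ hR h2 _).1 h).1
    rw [map_mul, hk, one_mul, detO_negOne, finrank_fintype_fun_eq_card, ho.neg_one_pow] at this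
    exact h2 (by simpa [one_add_one_eq_two] using (eq_neg_iff_add_eq_zero.1 this.symm))
  obtain ⟨h3, h4⟩ := FG.card_conjClasses_index_four (H := commutator (isometryGroup F q))
    (by rw [index_commutator_equiv e, index_commutator_odd hQ hR h2 (by simp; omega)])
    (z := e.symm (negOne Q)) (by rw [← map_mul, negOne_mul_self, map_one])
    (fun g => e.injective (by simpa using (Subgroup.mem_center_iff.1 negOne_mem_center (e g)).symm))
    (by simpa [← mem_commutator_equiv e] using h1 1 (map_one _)) S fun g hg => by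
      have := lev_dvd_of_split hQ h2 (g := e g) fun k hk hk' => by
        obtain ⟨k, rfl⟩ := e.surjective k
        refine (mem_commutator_equiv e k).2 ((hg k (e.injective (by simpa using hk.symm.eq))).resolve_right ?_)
        simpa [← mem_commutator_equiv e] using h1 _ hk'
      refine Finset.mem_filter.2 ⟨Finset.mem_univ _, ?_⟩
      exact (congrArg (FG.lev · 1) (isConj_GL_iff_mdiv.1 ((isometryGroup F q).subtype.map_isConj
        (ConjClasses.mk_eq_mk_iff_isConj.1 (Quotient.out_eq (ConjClasses.mk g)))))).dvd.trans this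
  have h5 : ∀ C : ConjClasses (isometryGroup F q), HasOdd (mdiv (Quotient.out C).1.1) := fun C => by
    by_contra h5
    simpa [W_pal_odd _ _ ho] using card_not_hasOdd_le h2 hQ' h {C} (by simpa using h5)
  obtain ⟨σ, s1, s2⟩ := exists_O_code h2 hQ' h
  have : Finite (SqClass F) := Nat.finite_of_card_ne_zero (by simp [card_sqClass h2])
  have := Fintype.ofFinite (SqClass F)
  have h6 := FG.card_code_le_aT h2 (S ×ˢ Finset.univ) _ σ (fun x _ => s1 x fun _ => h5 _)
    (fun x _ y _ => s2 x y (fun _ => h5 _) fun _ => h5 _)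
    fun x hx => (Finset.mem_filter.1 (Finset.mem_product.1 hx).1).2
  have h7 := two_mul_card_conjClasses_O_le h2 hQ' h
  have h8 : 3 ≤ Nat.card F := by
    have := Finite.one_lt_card (α := F)
    by_contra h
    have := Fintype.ofFinite F
    exact h2 (by simpa [← Nat.card_eq_fintype_card, show Nat.card F = 2 by omega] using
      FiniteField.cast_card_eq_zero F)
  have h9 := FG.W_O_odd_le h8 (2 * n + 1) n
  have h10 := FG.W_aT_le h8 (n := n) (2 * n + 1)
  rw [Finset.card_product, Finset.card_univ, ← Nat.card_eq_fintype_card, card_sqClass h2, hι] at h6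
  rw [W_pal_odd _ _ ho, hι] at h7
  refine ⟨Nat.le_of_mul_le_mul_left (le_trans ?_ (h4.trans (by omega))) two_pos, by omega⟩
  refine le_trans ?_ (card_le_card_conjClasses_O _ fun _ h => h)
  have : Finite {f // ∃ A : isometryGroup F q, (A.1 : Matrix ι ι F).charpoly = f} :=
    Set.finite_range _
  rw [show 2 * _ = Nat.card {c : F // c * c = 1} * _ from congrArg (· * _) ?_, ← FG.card_pal,
    ← Nat.card_prod]
  · refine Nat.card_le_card_of_injective (fun x => ⟨(X - C x.1.1) * x.2.1,
      exists_O_charpoly h2 hQ' h ((monic_X_sub_C _).mul x.2.2.1) ?_ ?_ ?_ x.1.2 (by simp)⟩) ?_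
    · rw [(monic_X_sub_C _).natDegree_mul x.2.2.1, x.2.2.2.1, natDegree_X_sub_C, hι, add_comm]
    · rw [dual_mul, dual_X_sub_C_of_norm x.1.2, x.2.2.2.2.1]
    · simpa [x.2.2.2.2.2] using left_ne_zero_of_mul_eq_one x.1.2
    · rintro ⟨⟨c, hc⟩, f, hf⟩ ⟨⟨d, hd⟩, g, hg⟩ e
      have e := congrArg Subtype.val e
      obtain rfl : c = d := by simpa [hf.2.2.2, hg.2.2.2] using congrArg (coeff · 0) e
      obtain rfl := mul_left_cancel₀ (X_sub_C_ne_zero c) e
      rfl
  · simp only [mul_self_eq_one_iff]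
    exact (Set.ncard_pair fun e : (1 : F) = -1 => h2 (by linear_combination e)).symm

end Cfsg.Agent.Class.Wall
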