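import Cfsg.Agent.Class.Wall.SpOdd
import Cfsg.Agent.Class.FG.Slots

/-!
# Classes of orthogonal groups in odd characteristic
-/

set_option autoImplicit false

namespace Cfsg.Agent.Class.Wall

open Module Polynomial
open Cfsg.Agent.KSG (Sim elemDiv mdiv IsPP)
open Cfsg.Agent.Class.Orth (SqClass sqClass)

variable {F V V' : Type*} [Field F] [AddCommGroup V] [Module F V] [AddCommGroup V'] [Module F V']
  [FiniteDimensional F V] [FiniteDimensional F V'] {B : LinearMap.BilinForm F V}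
  {B' : LinearMap.BilinForm F V'} {g : End F V} {g' : End F V'} {c : F}

omit [FiniteDimensional F V] in
theorem Herm.smul' {ε : F} (h : Herm (RingHom.id F) ε B) {a : F} (ha : a ≠ 0) :
    Herm (RingHom.id F) ε (a • B) :=
  ⟨⟨h.invol, fun x hx => h.left x fun y => by simpa [ha] using hx y,
    fun x hx => h.right x fun y => by simpa [ha] using hx y⟩, fun x y => by
      simp [h.symm x y, mul_left_comm]⟩

theorem sqClass_pow_odd (s : SqClass F) {e : ℕ} (he : Odd e) : s ^ e = s := by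
  obtain ⟨k, rfl⟩ := he
  rw [pow_succ, pow_mul, sq, Orth.sqClass_mul_self, one_pow, one_mul]

theorem neg_one_pow_mul_one (h2 : (2 : F) ≠ 0) {i : ℕ} (hi : i ≠ 0) :
    (-1 : F) ^ (i - 1) * 1 = 1 ↔ Odd i := by
  obtain ⟨i, rfl⟩ := Nat.exists_eq_add_one_of_ne_zero hi
  rw [mul_one, neg_one_pow_eq_one_iff_even fun e => h2 (by linear_combination -e)]
  simp [Nat.odd_add_one]

theorem Nd.dsc_compl₂ (h : Nd (RingHom.id F) B) {a : End F V} (ha : IsUnit a) :
    dsc (B.compl₂ a) = dsc B * sqClass (LinearMap.det a) := by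
  rw [dsc, dsc, ← Orth.sqClass_mul (h.det_ne_zero _) (ha.map LinearMap.det).ne_zero,
    ← LinearMap.det_toMatrix (finBasis F V), ← Matrix.det_mul,
    ← LinearMap.BilinForm.toMatrix_compRight]
  rfl

variable [Finite F]

theorem Herm.isoSim_of_sg (h2 : (2 : F) ≠ 0) (h : Herm (RingHom.id F) 1 B)
    (h' : Herm (RingHom.id F) 1 B') (hg : ∀ x y, B (g x) (g y) = B x y)
    (hg' : ∀ x y, B' (g' x) (g' y) = B' x y) (hs : Sim g g')
    (hl : ∀ c i, c * c = 1 → Odd i → sg B g c i = sg B' g' c i) :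
    IsoSim B (fun _ => 0) g B' (fun _ => 0) g' := by
  refine (((h.isTF_of_two_ne h2).isFormed fType_orth).isoSim_of_sg h2 (one_mul 1)
    ((h'.isTF_of_two_ne h2).isFormed fType_orth) ⟨hg, fun _ => by rw [hg]⟩ ⟨hg', fun _ => by rw [hg']⟩
    hs fun c i hc hi => ?_).forget
  rcases eq_or_ne i 0 with rfl | h0
  · rw [sg_eq_one hc (one_notMem_elemDiv g c), sg_eq_one hc (one_notMem_elemDiv g' c)]
  · exact hl c i hc ((neg_one_pow_mul_one h2 h0).1 hi)

/-- In a space of given type one of the signs is determined by the others. -/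
theorem Herm.sg_eq_of_others (h2 : (2 : F) ≠ 0) (h : Herm (RingHom.id F) 1 B)
    (h' : Herm (RingHom.id F) 1 B') (hg : ∀ x y, B (g x) (g y) = B x y)
    (hg' : ∀ x y, B' (g' x) (g' y) = B' x y) (hs : Sim g g') (hd : dsc B = dsc B') (hc : c * c = 1)
    {e : ℕ} (he : Odd e)
    (hl : ∀ d i, d * d = 1 → Odd i → ¬ (d = c ∧ i = e) → sg B g d i = sg B' g' d i) :
    sg B g c e = sg B' g' c e := by
  classical
  obtain ⟨n, J, QJ, k, k1, k2, k3⟩ := real_orth_block h2 hc he
  obtain ⟨a, ha, h1⟩ := Orth.sqClass_surjective (sg B g c e * sg B' g' c e)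
  have k4 : ∀ x y, (a • J) (k x) (k y) = (a • J) x y := fun x y => by simp [k2.map_B]
  have k5 := (h.prod k1.toHerm).isoSim_of_sg h2 (h'.prod (k1.toHerm.smul' ha)) (g := g.prodMap k)
    (g' := g'.prodMap k) (fun x y => by simp [hg, k2.map_B]) (fun x y => by simp [hg', k2.map_B])
    (KSG.sim_of_elemDiv_eq (by rw [elemDiv_prodMap, elemDiv_prodMap, hs.elemDiv_eq]))
    fun d i hd hi => by
      rw [h.sg_prod k1.toHerm hg k2.map_B hd, h'.sg_prod (k1.toHerm.smul' ha) hg' k4 hd,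
        k1.toHerm.sg_smul k2.map_B hd ha, k3, Multiset.count_singleton, ← mul_assoc]
      split_ifs with e
      · obtain ⟨rfl, rfl⟩ := X_sub_C_pow_inj hi.pos.ne' e
        rw [pow_one, h1, mul_left_comm, Orth.sqClass_mul_self, mul_one]
      · rw [pow_zero, mul_one, hl d i hd hi (by rintro ⟨rfl, rfl⟩; exact e rfl)]
  have k6 := k5.isometric.dsc_eq (h'.prod (k1.toHerm.smul' ha)).toNd
  rw [h.dsc_prodB k1.toHerm, h'.dsc_prodB (k1.toHerm.smul' ha), k1.toNd.dsc_smul ha, hd,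
    KSG.finrank_eq_sum_elemDiv k, k3, mul_right_inj, right_eq_mul, sqClass_pow_odd _ (by
      simpa only [Multiset.map_singleton, Multiset.sum_singleton, natDegree_pow, natDegree_X_sub_C,
        mul_one] using he), h1] at k6
  rw [eq_inv_of_mul_eq_one_left k6, Orth.sqClass_inv]

open Classical in
/-- With an odd block for an eigenvalue `±1` both types occur. -/
theorem exists_dsc_eq (h2 : (2 : F) ≠ 0) {s : Multiset F[X]} (hs : ∀ b ∈ s, IsPP b)
    (hX : ∀ b ∈ s, ¬ X ∣ b) (hd : s.map (dual (RingHom.id F)) = s)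
    (he : ∀ (c : F) e, c * c = 1 → Even e → Even (s.count ((X - C c) ^ e))) (hc : c * c = 1) {e : ℕ}
    (ho : Odd e) (h : (X - C c) ^ e ∈ s) (δ : SqClass F) :
    ∃ (n m : ℕ) (B : LinearMap.BilinForm F ((Fin n → F) × (Fin m → F))) (g : End F _),
      Herm (RingHom.id F) 1 B ∧ (∀ x y, B (g x) (g y) = B x y) ∧ elemDiv g = s ∧ dsc B = δ := by
  obtain ⟨t, rfl⟩ := Multiset.exists_cons_of_mem h
  obtain ⟨n, J, QJ, k, k1, k2, k3⟩ := real_orth_block h2 hc ho
  obtain ⟨m, B, Q, g, h1, h3, rfl⟩ := real_orth h2 (s := t) (fun b hb => hs b (by simp [hb]))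
    (fun b hb => hX b (by simp [hb])) (by
      rwa [Multiset.map_cons, dual_pow, dual_X_sub_C_of_norm hc, Multiset.cons_inj_right] at hd)
    fun d i hd hi => by
      have := he d i hd hi
      rwa [Multiset.count_cons_of_ne fun e => Nat.not_odd_iff_even.2 hi
        ((X_sub_C_pow_inj (c := c) (e' := i) ho.pos.ne' e.symm).2 ▸ ho)] at this
  obtain ⟨a, ha, h4⟩ := Orth.sqClass_surjective (δ * (dsc J * dsc B)⁻¹)
  refine ⟨n, m, prodB (a • J) B, k.prodMap g, (k1.toHerm.smul' ha).prod h1.toHerm,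
    fun x y => by simp [h3.map_B, k2.map_B], by rw [elemDiv_prodMap, k3]; rfl, ?_⟩
  rw [(k1.toHerm.smul' ha).dsc_prodB h1.toHerm, k1.toNd.dsc_smul ha, KSG.finrank_eq_sum_elemDiv k, k3,
    sqClass_pow_odd _ (by simpa only [Multiset.map_singleton, Multiset.sum_singleton, natDegree_pow,
      natDegree_X_sub_C, mul_one] using ho), h4, mul_assoc, inv_mul_cancel_right]

omit [Finite F] in
/-- The discriminant of a space with an isometry without eigenvalues `±1`. -/
theorem Herm.dsc_of_isUnit (h : Herm (RingHom.id F) 1 B)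
    (hg : ∀ x y, B (g x) (g y) = B x y) (hu : IsUnit (g * g - 1)) {m : ℕ} (hm : finrank F V = 2 * m) :
    dsc B * sqClass (LinearMap.det g * LinearMap.det (g * g - 1)) = dsc (sympB m F) := by
  have h1 := h.adj_mul_eq_one_iff.2 hg
  have h3 := isUnit_sub_adj h.toNd hg hu
  have h4 := (End.isUnit_iff _).1 h3
  have h5 : IsSympSpace (B.compl₂ (g - h.adj g)) := isFormed_of_isAlt ⟨fun x hx => h.left x fun y => by
    obtain ⟨y, rfl⟩ := h4.2 y
    exact hx y, fun y hy => h4.1 ((h.right _ hy).trans (map_zero _).symm)⟩ fun x => by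
      simp [h.apply_adj, h.symm x (g x)]
  have h6 : (LinearMap.det g) ≠ 0 := ((IsUnit.of_mul_eq_one_right _ h1).map LinearMap.det).ne_zero
  rw [← (h5.isometric (isSympSpace_sympB m F) (by simp [hm, two_mul])).dsc_eq
    (isSympSpace_sympB m F).nd, h.dsc_compl₂ h3, show g * g - 1 = g * (g - h.adj g) by
      rw [mul_sub, mul_eq_one_comm.1 h1], map_mul, ← mul_assoc, ← sq,
    Orth.sqClass_sq_mul h6 (h3.map LinearMap.det).ne_zero]

/-! ### Matrix groups -/

section Mat

variable {ι : Type} [Fintype ι] [DecidableEq ι] {Q : QuadraticForm F (ι → F)} {q : (ι → F) → F}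

theorem exists_O_of_dsc (h2 : (2 : F) ≠ 0) (hQ : (QuadraticMap.polarBilin Q).Nondegenerate)
    (h : ∀ v, Q v = q v) (hB : Herm (RingHom.id F) 1 B) (hg : ∀ x y, B (g x) (g y) = B x y)
    (hn : finrank F V = Fintype.card ι) (hd : dsc B = dsc (QuadraticMap.polarBilin Q)) :
    ∃ A : isometryGroup F q, mdiv (A.1 : Matrix ι ι F) = elemDiv g := by
  have h1 := isFormed_of_quadratic Q hQ
  obtain ⟨A, hA⟩ := exists_O_of_isometric hQ h (IsoSim.of_two_ne h2 ((hB.isTF_of_two_ne h2).isFormed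
    fType_orth) h1 ((hB.isometric_of_dsc h2 h1.herm (by simpa using hn) hd).isoSim_smul (g := 1)
      (g' := 1) 1 (by simp) (by simp))).isometric (g := g) ⟨hg, fun _ => by rw [hg]⟩
  exact ⟨A, hA.sim.elemDiv_eq.symm⟩

theorem O_isConj_of_sg (h2 : (2 : F) ≠ 0) (hQ : (QuadraticMap.polarBilin Q).Nondegenerate)
    (h : ∀ v, Q v = q v) {A A' : isometryGroup F q}
    (h1 : mdiv (A.1 : Matrix ι ι F) = mdiv (A'.1 : Matrix ι ι F))
    (h3 : ∀ c i, c * c = 1 → Odd i → sg (QuadraticMap.polarBilin Q) (Matrix.toLin' A.1.1) c i =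
      sg (QuadraticMap.polarBilin Q) (Matrix.toLin' A'.1.1) c i) : IsConj A A' :=
  have k := isFormed_of_quadratic Q hQ
  (O_isConj_iff_isoSim Q h).2 (IsoSim.of_two_ne h2 k k (k.herm.isoSim_of_sg h2 k.herm
    (O_pres Q h A).map_B (O_pres Q h A').map_B (KSG.sim_of_elemDiv_eq h1) h3))

/-- There is a block of odd size with eigenvalue `±1`. -/
def HasOdd (s : Multiset F[X]) : Prop := ∃ x : F × ℕ, x.1 * x.1 = 1 ∧ Odd x.2 ∧ (X - C x.1) ^ x.2 ∈ s

omit [Finite F] in
theorem O_code (h2 : (2 : F) ≠ 0) (hQ : (QuadraticMap.polarBilin Q).Nondegenerate)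
    (h : ∀ v, Q v = q v) (A : isometryGroup F q) {P : ℕ → Prop} {σ : F → ℕ → SqClass F}
    (hP : ∀ (c : F) e, c * c = 1 → Odd e → (X - C c) ^ e ∈ mdiv (A.1 : Matrix ι ι F) → P e)
    (hσ : ∀ c e, c * c = 1 → σ c e ≠ 1 → P e ∧ (X - C c) ^ e ∈ mdiv (A.1 : Matrix ι ι F)) :
    FG.Code P (Fintype.card ι) (mdiv (A.1 : Matrix ι ι F)) σ := by
  classical
  refine ⟨fun _ => KSG.isPP_of_mem_mdiv, (KSG.isUnit_iff_mdiv _).1 A.1.isUnit,
    KSG.sum_natDegree_mdiv _, O_map_dual_mdiv Q hQ h A, fun c e hc he => ?_, hσ⟩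
  rcases e.even_or_odd with h1 | h1
  · exact (isFormed_of_quadratic Q hQ).herm.even_count_of_symm h2 (O_pres Q h A).map_B hc h1
  · rw [Multiset.count_eq_zero_of_notMem (mt (hP c e hc h1) he)]
    exact Even.zero

/-- Each class with an odd block gives two codes. -/
theorem exists_O_code (h2 : (2 : F) ≠ 0) (hQ : (QuadraticMap.polarBilin Q).Nondegenerate)
    (h : ∀ v, Q v = q v) : ∃ σ : ConjClasses (isometryGroup F q) × SqClass F → F → ℕ → SqClass F,
      (∀ x, (x.2 ≠ 1 → HasOdd (mdiv (Quotient.out x.1).1.1)) →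
        FG.Code Odd (Fintype.card ι) (mdiv (Quotient.out x.1).1.1) (σ x)) ∧
      ∀ x y, (x.2 ≠ 1 → HasOdd (mdiv (Quotient.out x.1).1.1)) →
        (y.2 ≠ 1 → HasOdd (mdiv (Quotient.out y.1).1.1)) →
        mdiv (Quotient.out x.1).1.1 = mdiv (Quotient.out y.1).1.1 →
        (∀ c e, c * c = 1 → σ x c e = σ y c e) → x = y := by
  classical
  have k := isFormed_of_quadratic Q hQ
  choose! z z1 z2 z3 using fun (s : Multiset F[X]) (hs : HasOdd s) => hs
  refine ⟨fun x c e => if HasOdd (mdiv (Quotient.out x.1).1.1) ∧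
    (c, e) = z (mdiv (Quotient.out x.1).1.1) then x.2 else if Odd e then
      sg (QuadraticMap.polarBilin Q) (Matrix.toLin' (Quotient.out x.1).1.1) c e else 1,
    fun x _ => O_code h2 hQ h _ (fun _ _ _ h _ => h) fun c e hc he => ?_, fun x y hx hy e h1 => ?_⟩
  · dsimp only at he
    split_ifs at he with a b
    · obtain ⟨rfl, rfl⟩ := Prod.ext_iff.1 a.2
      exact ⟨z2 _ a.1, z3 _ a.1⟩
    · exact ⟨b, not_not.1 (mt (sg_eq_one hc) he)⟩
    · exact absurd rfl he
  simp only [← e] at h1 hy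
  by_cases h3 : HasOdd (mdiv (Quotient.out x.1).1.1)
  · have h4 := fun d i hd (hi : Odd i) (hn : ¬ (d = (z (mdiv (Quotient.out x.1).1.1)).1 ∧
        i = (z (mdiv (Quotient.out x.1).1.1)).2)) => by
      simpa only [Prod.ext_iff, hn, and_false, if_false, if_pos hi] using h1 d i hd
    refine Prod.ext (FG.eq_of_isConj_out (O_isConj_of_sg h2 hQ h e fun c i hc hi => ?_))
      (by simpa only [h3, and_self, if_true] using h1 _ (z (mdiv (Quotient.out x.1).1.1)).2 (z1 _ h3))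
    by_cases h5 : c = (z (mdiv (Quotient.out x.1).1.1)).1 ∧ i = (z (mdiv (Quotient.out x.1).1.1)).2
    · obtain ⟨rfl, rfl⟩ := h5
      exact k.herm.sg_eq_of_others h2 k.herm (O_pres Q h _).map_B (O_pres Q h _).map_B
        (KSG.sim_of_elemDiv_eq e) rfl hc hi h4
    · exact h4 c i hc hi h5
  · exact Prod.ext (FG.eq_of_isConj_out (O_isConj_of_sg h2 hQ h e fun c i hc hi => by
      simpa only [h3, false_and, if_false, if_pos hi] using h1 c i hc))
      ((not_not.1 (mt hx h3)).trans (not_not.1 (mt hy h3)).symm)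

theorem card_not_hasOdd_le (h2 : (2 : F) ≠ 0) (hQ : (QuadraticMap.polarBilin Q).Nondegenerate)
    (h : ∀ v, Q v = q v) (S : Finset (ConjClasses (isometryGroup F q)))
    (hS : ∀ C ∈ S, ¬ HasOdd (mdiv (Quotient.out C).1.1)) :
    S.card ≤ FG.W (FG.aS (fun _ => False) (Nat.card F)) (Fintype.card ι) (Fintype.card ι) :=
  FG.card_code_le h2 S (fun C => mdiv (Quotient.out C).1.1) (fun _ _ _ => 1)
    (fun C hC => O_code h2 hQ h _ (fun c e hc he h => hS C hC ⟨(c, e), hc, he, h⟩) (by simp))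
    fun C hC D hD e _ => FG.eq_of_isConj_out (O_isConj_of_sg h2 hQ h e fun c i hc hi => by
      rw [sg_eq_one hc fun h => hS C hC ⟨(c, i), hc, hi, h⟩,
        sg_eq_one hc fun h => hS D hD ⟨(c, i), hc, hi, h⟩])

theorem two_mul_card_conjClasses_O_le (h2 : (2 : F) ≠ 0)
    (hQ : (QuadraticMap.polarBilin Q).Nondegenerate) (h : ∀ v, Q v = q v) :
    2 * Nat.card (ConjClasses (isometryGroup F q)) ≤
      FG.W (FG.aS Odd (Nat.card F)) (Fintype.card ι) (Fintype.card ι) +
      FG.W (FG.aS (fun _ => False) (Nat.card F)) (Fintype.card ι) (Fintype.card ι) := by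
  classical
  have := Fintype.ofFinite (ConjClasses (isometryGroup F q))
  obtain ⟨ζ, hζ⟩ := Orth.exists_sqClass_ne_one h2
  obtain ⟨σ, h1, h3⟩ := exists_O_code h2 hQ h
  let P := fun C : ConjClasses (isometryGroup F q) => HasOdd (mdiv (Quotient.out C).1.1)
  have h4 : ∀ x ∈ Finset.univ ×ˢ {1} ∪ Finset.univ.filter P ×ˢ {ζ}, x.2 ≠ 1 → P x.1 := by
    simp only [Finset.mem_union, Finset.mem_product, Finset.mem_filter, Finset.mem_singleton]
    tauto
  have h5 := FG.card_code_le h2 _ _ σ (fun x hx => h1 x (h4 x hx))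
    fun x hx y hy => h3 x y (h4 x hx) (h4 y hy)
  have h6 := card_not_hasOdd_le h2 hQ h (Finset.univ.filter fun C => ¬ P C) (by simp [P])
  have h7 := Finset.card_filter_add_card_filter_not (s := Finset.univ) P
  rw [Finset.card_union_of_disjoint (Finset.disjoint_product.2 (Or.inr (by simpa using hζ.symm)))] at h5
  simp only [Finset.card_product, Finset.card_singleton, Finset.card_univ] at h5 h7
  rw [Nat.card_eq_fintype_card]
  omega

omit [Finite F] in
theorem exists_factors {f : F[X]} (hf : f.Monic) (h0 : f.coeff 0 ≠ 0) : ∃ s : Multiset F[X],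
    (∀ b ∈ s, IsPP b) ∧ (∀ b ∈ s, Irreducible b) ∧ (∀ b ∈ s, ¬ X ∣ b) ∧ s.prod = f := by
  classical
  have h1 := fun b => (Polynomial.mem_normalizedFactors_iff (p := b) hf.ne_zero).1
  exact ⟨_, fun b hb => IsPP.of_irreducible (h1 b hb).1 (h1 b hb).2.1, fun b hb => (h1 b hb).1,
    fun b hb hX => h0 (X_dvd_iff.1 (hX.trans (h1 b hb).2.2)), by
      rw [UniqueFactorizationMonoid.prod_normalizedFactors_eq hf.ne_zero, hf.normalize_eq_self]⟩

theorem exists_O_charpoly (h2 : (2 : F) ≠ 0) (hQ : (QuadraticMap.polarBilin Q).Nondegenerate)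
    (h : ∀ v, Q v = q v) {f : F[X]} (hf : f.Monic) (hn : f.natDegree = Fintype.card ι)
    (hd : dual (RingHom.id F) f = f) (h0 : f.coeff 0 ≠ 0) (hc : c * c = 1) (hr : f.IsRoot c) :
    ∃ A : isometryGroup F q, (A.1 : Matrix ι ι F).charpoly = f := by
  classical
  obtain ⟨s, s1, s2, s3, rfl⟩ := exists_factors hf h0
  obtain ⟨n, m, B, g, k1, k2, rfl, k3⟩ := exists_dsc_eq h2 s1 s3
    ((FG.map_dual_eq_iff s1 s2 (fun _ => rfl) s3).2 hd) (fun d e _ he => by
      rw [FG.count_pow_eq_zero s1 s2 d (by rintro rfl; simp at he)]; exact Even.zero) hc odd_one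
    (by rw [pow_one, ← Multiset.count_pos, FG.count_eq_rootMultiplicity s1 s2]
        exact (rootMultiplicity_pos hf.ne_zero).2 hr) (dsc (QuadraticMap.polarBilin Q))
  obtain ⟨A, hA⟩ := exists_O_of_dsc h2 hQ h k1 k2 (by
    rw [← hn, KSG.finrank_eq_sum_elemDiv g, (FG.coeff_zero_prod_ne s1 s3).2]) k3
  exact ⟨A, by rw [← KSG.prod_mdiv, hA]⟩

theorem exists_O_charpoly' (h2 : (2 : F) ≠ 0) (hQ : (QuadraticMap.polarBilin Q).Nondegenerate)
    (h : ∀ v, Q v = q v) {f : F[X]} (hf : f.Monic) {m : ℕ} (hm : Fintype.card ι = 2 * m)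
    (hn : f.natDegree = 2 * m) (hd : dual (RingHom.id F) f = f) (h0 : f.coeff 0 = 1)
    (hr : f.eval 1 * f.eval (-1) ≠ 0)
    (hs : dsc (QuadraticMap.polarBilin Q) * sqClass (f.eval 1 * f.eval (-1)) = dsc (sympB m F)) :
    ∃ A : isometryGroup F q, (A.1 : Matrix ι ι F).charpoly = f := by
  classical
  obtain ⟨s, s1, s2, s3, rfl⟩ := exists_factors hf (h0.trans_ne one_ne_zero)
  obtain ⟨n, B, Q', g, k1, k2, rfl⟩ := real_orth h2 s1 s3
    ((FG.map_dual_eq_iff s1 s2 (fun _ => rfl) s3).2 hd) (fun d e _ he => by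
      rw [FG.count_pow_eq_zero s1 s2 d (by rintro rfl; simp at he)]; exact Even.zero)
  rw [← KSG.charpoly_eq_prod_elemDiv] at hn h0 hr hs
  rw [LinearMap.charpoly_natDegree] at hn
  have h3 : g.charpoly.eval 1 * g.charpoly.eval (-1) = LinearMap.det (g * g - 1) := by
    rw [LinearMap.eval_charpoly, LinearMap.eval_charpoly, ← map_mul, map_neg, map_one]
    congr 1
    ext
    simp
    ring
  have h4 := k1.toHerm.dsc_of_isUnit k2.map_B ((LinearMap.isUnit_iff_isUnit_det _).2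
    (h3 ▸ hr).isUnit) hn
  rw [LinearMap.det_eq_sign_charpoly_coeff, h0, hn, (even_two_mul m).neg_one_pow, one_mul, one_mul,
    ← h3, ← hs] at h4
  obtain ⟨A, hA⟩ := exists_O_of_dsc h2 hQ h k1.toHerm k2.map_B (hn.trans hm.symm) (mul_right_cancel h4)
  exact ⟨A, by rw [← KSG.prod_mdiv, hA]⟩

theorem card_le_card_conjClasses_O (R : F[X] → Prop)
    (hR : ∀ f, R f → ∃ A : isometryGroup F q, (A.1 : Matrix ι ι F).charpoly = f) :
    Nat.card {f // R f} ≤ Nat.card (ConjClasses (isometryGroup F q)) := by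
  choose A hA using hR
  refine Nat.card_le_card_of_injective (fun f => ConjClasses.mk (A f.1 f.2)) fun f g e =>
    Subtype.ext ?_
  rw [← hA _ f.2, ← hA _ g.2, ← KSG.prod_mdiv, ← KSG.prod_mdiv]
  exact congrArg _ (KSG.isConj_GL_iff_mdiv.1
    ((isometryGroup F q).subtype.map_isConj (ConjClasses.mk_eq_mk_iff_isConj.1 e)))

omit [Finite F] in
theorem pal_add {f : F[X]} {k : ℕ} (a : F) (h : f.Monic ∧ f.natDegree = 2 * (k + 2) ∧
    dual (RingHom.id F) f = f ∧ f.coeff 0 = 1) {g : F[X]}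
    (hg : g = f + C a * (X ^ (k + 3) + C 2 * X ^ (k + 2) + X ^ (k + 1))) :
    g.Monic ∧ g.natDegree = 2 * (k + 2) ∧ dual (RingHom.id F) g = g ∧ g.coeff 0 = 1 := by
  obtain ⟨h1, h3, h4, h5⟩ := h
  have h6 : (C a * (X ^ (k + 3) + C 2 * X ^ (k + 2) + X ^ (k + 1))).natDegree < f.natDegree :=
    lt_of_le_of_lt (b := k + 3) (by compute_degree) (by omega)
  have h7 : g.natDegree = 2 * (k + 2) := by rw [hg, natDegree_add_eq_left_of_natDegree_lt h6, h3]
  have h8 : g.coeff 0 = 1 := by simp [hg, h5, coeff_X_pow]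
  refine ⟨hg ▸ h1.add_of_left (degree_lt_degree h6), h7, ?_, h8⟩
  simp only [dual, Polynomial.map_id, reverse, h3, h5, h7, h8, map_one, inv_one, one_mul] at h4 ⊢
  simp only [hg, reflect_add, reflect_C_mul, h4, reflect_monomial]
  rw [revAt_le (by omega), revAt_le (by omega), revAt_le (by omega),
    show 2 * (k + 2) - (k + 3) = k + 1 by omega, show 2 * (k + 2) - (k + 2) = k + 2 by omega,
    show 2 * (k + 2) - (k + 1) = k + 3 by omega]
  ring

theorem pow_le_two_mul_card_conjClasses_O (h2 : (2 : F) ≠ 0)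
    (hQ : (QuadraticMap.polarBilin Q).Nondegenerate) (h : ∀ v, Q v = q v) {m : ℕ}
    (hm : Fintype.card ι = 2 * m) (hm2 : 2 ≤ m) :
    Nat.card F ^ m ≤ 2 * Nat.card (ConjClasses (isometryGroup F q)) := by
  classical
  obtain ⟨k, rfl⟩ := Nat.exists_eq_add_of_le' hm2
  obtain ⟨ζ, hζ⟩ := Orth.exists_not_isSquare h2
  have h0 : ζ ≠ 0 := by rintro rfl; simp at hζ
  let R := fun f => ∃ A : isometryGroup F q, (A.1 : Matrix ι ι F).charpoly = f
  let φ := fun f : F[X] => f + C ((ζ - 1) * f.eval 1 / (2 * 2)) *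
    (X ^ (k + 3) + C 2 * X ^ (k + 2) + X ^ (k + 1))
  have h1 : ∀ f, (φ f).eval 1 = ζ * f.eval 1 := fun f => by simp [φ]; field_simp; ring
  have h3 : ∀ f, (φ f).eval (-1) = f.eval (-1) := fun f => by simp [φ, pow_succ]; ring_nf; simp
  have h4 : ∀ f, f.Monic ∧ f.natDegree = 2 * (k + 2) ∧ dual (RingHom.id F) f = f ∧ f.coeff 0 = 1 →
      ¬ R f → f.eval 1 * f.eval (-1) ≠ 0 ∧ dsc (QuadraticMap.polarBilin Q) *
        sqClass (f.eval 1 * f.eval (-1)) * (dsc (sympB (k + 2) F))⁻¹ ≠ 1 := fun f ⟨a, b, c, d⟩ hR => by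
    have := fun x hx => mt (exists_O_charpoly h2 hQ h a (b.trans hm.symm) c (d.trans_ne one_ne_zero)
      (c := x) hx) hR
    have e := mul_ne_zero (this 1 (by simp)) (this (-1) (by simp))
    exact ⟨e, fun e' => hR (exists_O_charpoly' h2 hQ h a hm b c d e (mul_inv_eq_one.1 e'))⟩
  have : Finite {f // R f} := Set.finite_range _
  rw [← FG.card_pal]
  refine le_trans (Nat.card_le_card_of_injective (β := {f // R f} ⊕ {f // R f})
    (fun f => if hf : R f.1 then Sum.inl ⟨_, hf⟩ else Sum.inr ⟨φ f.1, by_contra fun hf' => ?_⟩)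
    fun f g e => ?_) ?_
  · obtain ⟨a, b⟩ := h4 _ f.2 hf
    have := Orth.sqClass_eq_of_ne_one (h4 _ (pal_add _ f.2 rfl) hf').2 b
    rw [h1, h3, mul_assoc ζ, Orth.sqClass_mul h0 a, mul_left_inj, mul_right_inj, mul_eq_right] at this
    exact hζ ((Orth.sqClass_eq_one_iff h0).1 this)
  · dsimp only at e
    split_ifs at e <;> simp only [Sum.inl.injEq, Sum.inr.injEq, Subtype.mk.injEq] at e
    · exact Subtype.ext e
    · have := congrArg (eval 1) e
      rw [h1, h1, mul_right_inj' h0] at this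
      simpa only [φ, this, add_left_inj, Subtype.val_inj] using e
  · rw [Nat.card_sum, ← two_mul]
    exact Nat.mul_le_mul_left _ (card_le_card_conjClasses_O R fun _ h => h)

end Mat

end Cfsg.Agent.Class.Wall
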