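import Cfsg.Agent.Class.Wall.Odd
import Cfsg.Agent.Class.Wall.UnipCount
import Cfsg.Agent.Class.Wall.Jordan

/-!
# Unipotent classes of symplectic groups in odd characteristic
-/

set_option autoImplicit false

namespace Cfsg.Agent.Class.Wall

open Module Polynomial
open Cfsg.Agent.KSG (Sim Lay layMk elemDiv mdiv Cent layPi)
open Cfsg.Agent.Class.Orth (SqClass sqClass)

variable {F V : Type*} [Field F] [AddCommGroup V] [Module F V] [FiniteDimensional F V]
  {B : LinearMap.BilinForm F V} {g : End F V} {ε c : F}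

/-- The layer discriminants can be prescribed. -/
theorem Herm.exists_sg (h2 : (2 : F) ≠ 0) (h : Herm (RingHom.id F) ε B)
    (hg : ∀ x y, B (g x) (g y) = B x y) (hc : c * c = 1) (hn : IsNilpotent (c • g - 1))
    (s : ℕ → SqClass F) : ∃ B' : LinearMap.BilinForm F V, Herm (RingHom.id F) ε B' ∧
      (∀ x y, B' (g x) (g y) = B' x y) ∧
      ∀ i, (-1) ^ (i - 1) * ε = 1 → (X - C c) ^ i ∈ elemDiv g → sg B' g c i = s i := by
  classical
  have key : ∀ i, ∃ γ : LinearMap.BilinForm F (Lay (c • g - 1) i),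
      Herm (RingHom.id F) ((-1) ^ (i - 1) * ε) γ ∧
      ((-1) ^ (i - 1) * ε = 1 → (X - C c) ^ i ∈ elemDiv g → dsc γ = s i) := fun i => by
    by_cases hi : (-1) ^ (i - 1) * ε = 1 ∧ (X - C c) ^ i ∈ elemDiv g
    · obtain ⟨γ, h1, h3⟩ := exists_herm_dsc (V := Lay (c • g - 1) i) (by
        rw [finrank_lay_eq_count' g hc]; exact Multiset.count_ne_zero.2 hi.2) (s i)
      exact ⟨γ, hi.1.symm ▸ h1, fun _ _ => h3⟩
    · exact ⟨_, h.herm_layB (smul_pres hg hc) i, fun a b => absurd ⟨a, b⟩ hi⟩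
  choose γ h1 h3 using key
  obtain ⟨B', k1, k2, k3⟩ := h.exists_of_lay (smul_pres hg hc) hn (e := 2⁻¹)
    (by simp; field_simp; ring) γ h1
  refine ⟨B', k2, fun x y => ?_, fun i a b => by rw [sg_eq k1, k3, h3 i a b]⟩
  simpa [smul_smul, hc] using smul_pres k1 hc x y

theorem neg_one_pow_mul_neg_one (h2 : (2 : F) ≠ 0) {i : ℕ} (hi : i ≠ 0) :
    (-1 : F) ^ (i - 1) * -1 = 1 ↔ Even i := by
  rw [← pow_succ, Nat.sub_add_cancel (Nat.pos_of_ne_zero hi), neg_one_pow_eq_one_iff_even]
  exact fun e => h2 (by linear_combination -e)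

theorem one_notMem_elemDiv (g : End F V) (c : F) : (X - C c) ^ 0 ∉ elemDiv g := fun h => by
  simpa using (KSG.isPP_of_mem_elemDiv h).natDegree_pos

variable [Finite F] {m : ℕ}

theorem Sp_isConj_iff_sg (h2 : (2 : F) ≠ 0) {A A' : Matrix.symplecticGroup (Fin m) F} :
    IsConj A A' ↔ mdiv A.1 = mdiv A'.1 ∧ ∀ c i, c * c = 1 → Even i →
      sg (sympB m F) (Matrix.toLin' A.1) c i = sg (sympB m F) (Matrix.toLin' A'.1) c i := by
  rw [Sp_isConj_iff_isoSim]
  refine ⟨fun h => ⟨h.sim.elemDiv_eq, fun c i hc _ =>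
    h.sg_eq (isSympSpace_sympB m F).herm (Sp.form_smul_smul A') hc i⟩, fun ⟨h, h'⟩ =>
    (isSympSpace_sympB m F).isoSim_of_sg h2 (by simp) (isSympSpace_sympB m F)
      ⟨Sp.form_smul_smul A, fun _ => rfl⟩ ⟨Sp.form_smul_smul A', fun _ => rfl⟩
      (KSG.sim_of_elemDiv_eq h) fun c i hc hi => h' c i hc ?_⟩
  rcases eq_or_ne i 0 with rfl | h0
  exacts [Even.zero, (neg_one_pow_mul_neg_one h2 h0).1 hi]

omit [Finite F] in
theorem map_natDegree_pow (μ : Multiset ℕ) :
    (μ.map fun e => (X - C 1 : F[X]) ^ e).map natDegree = μ := by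
  rw [Multiset.map_map]
  simp only [Function.comp_def, natDegree_pow, natDegree_X_sub_C, mul_one, Multiset.map_id']

omit [Finite F] in
theorem X_sub_one_pow_injective : Function.Injective fun e : ℕ => (X - C 1 : F[X]) ^ e :=
  fun a b e => by simpa only [natDegree_pow, natDegree_X_sub_C, mul_one] using congrArg natDegree e

/-- Unipotent classes of `Sp` correspond to signed partitions. -/
theorem card_unip_classes_Sp (h2 : (2 : F) ≠ 0) (P : Matrix.symplecticGroup (Fin m) F → Prop)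
    (R : Nat.Partition (2 * m) → Prop) [DecidablePred R]
    (h1 : ∀ μ, R μ → ∀ j, Odd j → Even (μ.parts.count j))
    (hP : ∀ A, P A ↔ ∃ μ, R μ ∧ mdiv A.1 = μ.parts.map fun e => (X - C 1 : F[X]) ^ e) :
    Nat.card {C : ConjClasses (Matrix.symplecticGroup (Fin m) F) // ∃ g, ConjClasses.mk g = C ∧ P g} =
      ∑ μ ∈ Finset.univ.filter R, 2 ^ (μ.parts.toFinset.filter fun j => Even j).card := by
  classical
  let φ : (Σ μ : Finset.univ.filter R, (μ.1.parts.toFinset.filter fun j => Even j) → SqClass F) →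
      Multiset F[X] × (ℕ → SqClass F) := fun x => (x.1.1.parts.map fun e => (X - C 1 : F[X]) ^ e,
        fun i => if h : i ∈ x.1.1.parts.toFinset.filter fun j => Even j then x.2 ⟨i, h⟩ else 1)
  have hφ : Function.Injective φ := by
    rintro ⟨μ, s⟩ ⟨ν, t⟩ e
    obtain rfl : μ = ν := Subtype.ext (Nat.Partition.ext
      (Multiset.map_injective X_sub_one_pow_injective (congrArg Prod.fst e)))
    refine congrArg _ (funext fun i => ?_)
    simpa only [φ, dif_pos i.2] using congrFun (congrArg Prod.snd e) i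
  have hs : ∀ A, P A → ∀ c i, c ≠ 1 → (X - C c) ^ i ∉ mdiv A.1 := fun A hA c i hc h => by
    obtain ⟨μ, -, e⟩ := (hP A).1 hA
    rcases eq_or_ne i 0 with rfl | h0
    · exact one_notMem_elemDiv _ c h
    · obtain ⟨j, -, hj⟩ := Multiset.mem_map.1 (e ▸ h)
      exact hc (X_sub_C_pow_inj h0 hj.symm).1
  rw [card_conjClasses_of_inv (fun A : Matrix.symplecticGroup (Fin m) F => (mdiv A.1,
    fun i => if Even i then sg (sympB m F) (Matrix.toLin' A.1) 1 i else 1)) P (· ∈ Set.range φ)
    (fun A A' hA hA' => ?_) fun a => ⟨?_, ?_⟩]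
  · refine (Nat.card_range_of_injective hφ).trans ?_
    have : Finite (SqClass F) := Nat.finite_of_card_ne_zero (by simp [Orth.card_sqClass h2])
    simp only [Nat.card_sigma, Nat.card_fun, Orth.card_sqClass h2, Nat.card_eq_fintype_card,
      Fintype.card_coe]
    exact Finset.sum_coe_sort _ fun μ : Nat.Partition (2 * m) =>
      2 ^ (μ.parts.toFinset.filter fun j => Even j).card
  · rw [Sp_isConj_iff_sg h2, Prod.ext_iff]
    refine and_congr_right fun _ => ⟨fun h => funext fun i =>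
      ite_congr rfl (h 1 i (one_mul 1)) fun _ => rfl, fun h c i hc hi => ?_⟩
    rcases eq_or_ne c 1 with rfl | h0
    · simpa only [if_pos hi] using congrFun h i
    · rw [sg_eq_one hc (hs A hA c i h0), sg_eq_one hc (hs A' hA' c i h0)]
  · rintro ⟨⟨⟨μ, hμ⟩, s⟩, rfl⟩
    have hμ' := (Finset.mem_filter.1 hμ).2
    refine ((exists_Sp_mdiv_eq_iff (F := F) (m := m)
      (s := μ.parts.map fun e => (X - C 1 : F[X]) ^ e)).2 ⟨fun b hb => ?_, fun b hb => ?_,
        by rw [map_natDegree_pow, μ.parts_sum], ?_, fun c e _ he => ?_⟩).elim fun A hA => ?_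
    rotate_right
    · obtain ⟨B', k1, k2, k3⟩ := (isSympSpace_sympB m F).herm.exists_sg h2 (Sp.form_smul_smul A)
        (g := Matrix.toLin' A.1) (one_mul 1) ⟨2 * m, by
          have := (KSG.aeval_eq_zero_iff_elemDiv (Matrix.toLin' A.1) ((X - C 1) ^ (2 * m))).2
            fun b hb => by
              obtain ⟨e, he, rfl⟩ := Multiset.mem_map.1 (Multiset.mem_of_le hA.le hb)
              exact pow_dvd_pow _ (μ.parts_sum ▸ Multiset.le_sum_of_mem he)
          simpa using this⟩ (φ ⟨⟨μ, hμ⟩, s⟩).2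
      obtain ⟨A', hA'⟩ := exists_Sp_of_isSympSpace (k1.isSympSpace h2) (m := m)
        (by simp [two_mul]) k2
      have h3 : mdiv A'.1 = _ := hA'.sim.elemDiv_eq.symm.trans hA
      refine ⟨A', (hP _).2 ⟨μ, hμ', h3⟩, Prod.ext h3 (funext fun i => ?_)⟩
      by_cases hi : i ∈ μ.parts.toFinset.filter fun j => Even j
      · obtain ⟨h4, h5⟩ := Finset.mem_filter.1 hi
        rw [Multiset.mem_toFinset] at h4
        exact (if_pos h5).trans ((hA'.sg_eq (isSympSpace_sympB m F).herm (Sp.form_smul_smul A')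
          (one_mul 1) i).symm.trans (k3 i ((neg_one_pow_mul_neg_one h2 (μ.parts_pos h4).ne').2 h5)
            (Multiset.mem_of_le hA.ge (Multiset.mem_map_of_mem _ h4))))
      · refine Eq.trans (ite_eq_right_iff.2 fun h5 => sg_eq_one (one_mul 1) fun h => hi ?_)
          (Eq.symm (dif_neg hi))
        exact Finset.mem_filter.2 ⟨Multiset.mem_toFinset.2 ((Multiset.mem_map_of_injective
          X_sub_one_pow_injective).1 (Multiset.mem_of_le h3.le h)), h5⟩
    · obtain ⟨e, he, rfl⟩ := Multiset.mem_map.1 hb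
      exact isPP_X_sub_C_pow 1 (μ.parts_pos he).ne'
    · obtain ⟨e, he, rfl⟩ := Multiset.mem_map.1 hb
      simp [X_dvd_iff, coeff_zero_eq_eval_zero]
    · rw [Multiset.map_map]
      exact Multiset.map_congr rfl fun e _ => by
        rw [Function.comp_apply, dual_pow, dual_X_sub_C_of_norm (by simp)]
    · rcases eq_or_ne c 1 with rfl | h0
      · rw [Multiset.count_map_eq_count' _ _ X_sub_one_pow_injective]
        exact h1 μ hμ' e he
      · rw [Multiset.count_eq_zero_of_notMem fun h => ?_]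
        · exact Even.zero
        obtain ⟨j, -, hj⟩ := Multiset.mem_map.1 h
        exact h0 (X_sub_C_pow_inj (by rintro rfl; simp at he) hj.symm).1
  · rintro ⟨A, hA, rfl⟩
    obtain ⟨μ, hμ, h3⟩ := (hP A).1 hA
    refine ⟨⟨⟨μ, Finset.mem_filter.2 ⟨Finset.mem_univ _, hμ⟩⟩, fun i =>
      sg (sympB m F) (Matrix.toLin' A.1) 1 i⟩, Prod.ext h3.symm (funext fun i => ?_)⟩
    by_cases hi : i ∈ μ.parts.toFinset.filter fun j => Even j
    · exact (dif_pos hi).trans (if_pos (Finset.mem_filter.1 hi).2).symm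
    · refine (dif_neg hi).trans (ite_eq_right_iff.2 fun h5 => sg_eq_one (one_mul 1) fun h => hi ?_).symm
      exact Finset.mem_filter.2 ⟨Multiset.mem_toFinset.2 ((Multiset.mem_map_of_injective
        X_sub_one_pow_injective).1 (Multiset.mem_of_le h3.le h)), h5⟩

/-! ### Regular unipotent elements -/

omit [Finite F] in
theorem exists_eq_algebraMap (h : finrank F V ≤ 1) (u : End F V) : ∃ c, u = algebraMap F _ c := by
  obtain ⟨v, hv⟩ := finrank_le_one_iff.1 h
  obtain ⟨c, hc⟩ := hv (u v)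
  refine ⟨c, LinearMap.ext fun w => ?_⟩
  obtain ⟨a, rfl⟩ := hv w
  rw [map_smul, ← hc, map_smul]
  rfl

omit [Finite F] in
theorem Nd.card_isom_of_finrank_eq_one (h2 : (2 : F) ≠ 0) (h : Nd (RingHom.id F) B)
    (h1 : finrank F V = 1) : Nat.card (Isom B (fun _ => 0)) = 2 := by
  have := nontrivial_of_finrank_eq_succ h1
  rw [h.card_isom fun _ _ _ => rfl, Nat.card_eq_two_iff]
  refine ⟨⟨1, by simp [h.isAnti_adj.one]⟩, ⟨-1, by simp [h.isAnti_adj.neg, h.isAnti_adj.one]⟩,
    fun e => h2 ((algebraMap F (End F V)).injective ?_), Set.eq_univ_of_forall fun ⟨u, hu⟩ => ?_⟩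
  · rw [map_ofNat, map_zero, ← one_add_one_eq_two]
    exact add_eq_zero_iff_eq_neg.2 (congrArg Subtype.val e)
  · obtain ⟨c, rfl⟩ := exists_eq_algebraMap h1.le u
    have h3 : c * c = 1 := (algebraMap F (End F V)).injective (by
      rwa [h.adj_algebraMap, ← map_mul, ← map_one (algebraMap F (End F V))] at hu)
    rcases mul_self_eq_one_iff.1 h3 with rfl | rfl <;> simp

omit [FiniteDimensional F V] [Finite F] in
theorem card_skew_of_basis (h2 : (2 : F) ≠ 0) (b : Basis (Fin (2 * m)) F V) (τ : End F V)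
    (hτ : ∀ i, τ (b i) = (-1 : F) ^ (i : ℕ) • b i) : Nat.card {x // τ x = -x} = Nat.card F ^ m := by
  classical
  have h1 : ∀ x i, b.repr (τ x) i = (-1) ^ (i : ℕ) * b.repr x i := fun x i => by
    conv_lhs => rw [← b.sum_repr x, map_sum]
    simp [hτ, Finsupp.single_apply, mul_comm, -Basis.sum_repr]
  have h3 : ∀ x, τ x = -x ↔ ∀ i : Fin (2 * m), ¬ Odd (i : ℕ) → b.equivFun x i = 0 := fun x => by
    rw [b.ext_elem_iff]
    refine forall_congr' fun i => ?_
    rw [h1, map_neg, Finsupp.neg_apply, b.equivFun_apply]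
    rcases (i : ℕ).even_or_odd with hi | hi
    · simp [hi.neg_one_pow, hi, ← add_eq_zero_iff_eq_neg, ← two_mul, h2]
    · simp [hi.neg_one_pow, hi]
  rw [Nat.card_congr ((b.equivFun.toEquiv.subtypeEquiv h3).trans (Equiv.subtypePiEquivPi
    (p := fun (i : Fin (2 * m)) (a : F) => ¬ Odd (i : ℕ) → a = 0))), Nat.card_pi,
    Fin.prod_univ_eq_prod_range (fun i => Nat.card {a : F // ¬ Odd i → a = 0})]
  clear h3 h1 hτ b
  induction m with
  | zero => simp
  | succ m ih => rw [mul_add, Finset.prod_range_succ, Finset.prod_range_succ, ih]; simp [pow_succ]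

theorem Herm.card_cent_regular (h2 : (2 : F) ≠ 0) (h : Herm (RingHom.id F) ε B)
    (hg : ∀ x y, B (g x) (g y) = B x y) (hm : m ≠ 0) (hd : elemDiv g = {(X - C 1) ^ (2 * m)}) :
    Nat.card {u : Cent (g - 1) // centAdj h.toNd hg u * u = 1} = 2 * Nat.card F ^ m := by
  classical
  have h0 : ∀ j, (g - 1) ^ j = 0 ↔ 2 * m ≤ j := fun j => by
    have := KSG.aeval_eq_zero_iff_elemDiv g ((X - C 1) ^ j)
    simp only [hd, Multiset.mem_singleton, forall_eq,
      pow_dvd_pow_iff (X_sub_C_ne_zero (1 : F)) (not_isUnit_X_sub_C 1)] at this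
    simpa using this
  obtain ⟨n, d, v, b, hJ⟩ := KSG.exists_isJB ⟨_, (h0 _).2 le_rfl⟩
  have h1 := hJ.elemDiv_eq.symm.trans hd
  have h3 : ∀ k, d k = 2 * m := fun k => X_sub_one_pow_injective (F := F)
    (Multiset.mem_singleton.1 (h1 ▸ mem_jtype.2 ⟨k, rfl⟩))
  obtain rfl : n = 1 := by simpa [jtype] using congrArg Multiset.card h1
  have h4 : ∀ i, finrank F (Lay (g - 1) i) = if 2 * m = i then 1 else 0 := fun i => by
    rw [hJ.finrank_lay]
    split_ifs with e <;> simp [h3, e]
  have hA := h.aInv_centAdj hg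
  let G : Cent (g - 1) := ⟨g, KSG.mem_cent.2 ((Commute.refl g).sub_right (Commute.one_right g))⟩
  have h5 : ∀ j, (G - centAdj h.toNd hg G) ^ j = 0 ↔ 2 * m ≤ j := fun j => by
    have k1 := h.adj_mul_eq_one_iff.2 hg
    have k2 : g - h.adj g = h.adj g * (g + 1) * (g - 1) := by
      rw [mul_add, k1, add_mul, mul_one, mul_sub, mul_sub, k1]; simp
    have k3 : IsUnit (g + 1) := by
      have := IsNilpotent.isUnit_add_right_of_commute ⟨_, (h0 _).2 le_rfl⟩
        ((IsUnit.mk0 _ h2).map (algebraMap F (End F V))) (Algebra.commutes _ _).symm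
      rwa [map_ofNat, show g - 1 + 2 = g + 1 by rw [← one_add_one_eq_two]; abel] at this
    have k4 : Commute (h.adj g) g := k1.trans (mul_eq_one_comm.1 k1).symm
    rw [← h0, Subtype.ext_iff]
    change (g - h.adj g) ^ j = 0 ↔ _
    rw [k2, Commute.mul_pow ((k4.sub_right (Commute.one_right _)).mul_left
      (((Commute.refl g).add_left (Commute.one_left g)).sub_right (Commute.one_right _))),
      (((IsUnit.of_mul_eq_one _ k1).mul k3).pow j).mul_right_eq_zero]
  set δ := G - centAdj h.toNd hg G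
  have h6 : (minpoly F δ).natDegree = 2 * m := by
    have k1 := minpoly.dvd F δ (p := X ^ (2 * m)) (by simpa using (h5 _).2 le_rfl)
    obtain ⟨j, hj, k2⟩ := (dvd_prime_pow prime_X _).1 k1
    have k3 := eq_of_monic_of_associated (minpoly.monic (Algebra.IsIntegral.isIntegral δ))
      (monic_X_pow j) k2
    have k4 := minpoly.aeval F δ
    rw [k3] at k4 ⊢
    simpa using hj.antisymm ((h5 j).1 (by simpa using k4))
  have h7 := linearIndependent_pow (K := F) δ
  rw [h6] at h7
  have := NeZero.mk (mul_ne_zero two_ne_zero hm)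
  rw [h.card_cent_unitary hg ((h0 _).2 le_rfl) (e := 2⁻¹) (by simp; field_simp; ring),
    Finset.prod_range_succ, (h.herm_layB hg _).card_isom_of_finrank_eq_one h2 (by simp [h4]),
    Finset.prod_eq_one fun i hi => ?_, one_mul, ← card_skew_of_basis h2
      (basisOfLinearIndependentOfCardEqFinrank h7 (by simp [hJ.finrank_cent, h3]))
      ⟨⟨centAdj h.toNd hg, hA.add⟩, hA.smul⟩ fun i => ?_]
  · refine congrArg _ (Nat.card_congr (Equiv.subtypeEquivRight fun x => and_iff_right_of_imp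
      fun hx => funext fun i => ?_))
    obtain ⟨c, hc⟩ := exists_eq_algebraMap (by rw [h4]; split_ifs <;> simp) (KSG.layHom _ i x)
    have := h.layHom_centAdj hg i x
    rw [hx, map_neg, hc, (h.herm_layB hg i).adj_algebraMap, RingHom.id_apply, neg_eq_iff_add_eq_zero,
      ← two_smul F, smul_eq_zero_iff_right h2] at this
    exact hc.trans this
  · rw [coe_basisOfLinearIndependentOfCardEqFinrank]
    change centAdj h.toNd hg (δ ^ (i : ℕ)) = _
    rw [hA.pow, hA.sub, hA.invol, ← neg_sub G, ← neg_one_smul F, _root_.smul_pow]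
  · have := finrank_zero_iff.1 ((h4 i).trans (if_neg (Finset.mem_range.1 hi).ne'))
    exact Nat.card_eq_one_iff_unique.2 ⟨⟨fun _ _ => Isom.ext' fun _ => Subsingleton.elim _ _⟩, ⟨1⟩⟩

end Cfsg.Agent.Class.Wall
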